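import Mathlib
import Cfsg.Agent.CIT.Final1
import Cfsg.Agent.H52.Nilp
import Cfsg.Agent.RK.SE
import Cfsg.Agent.RK.Tri
import Cfsg.Agent.H38.InvCyc

set_option autoImplicit false

/-!
# CIT groups XXI: CN-groups without solvable normal subgroups are CIT-groups
-/

namespace Cfsg.Agent.CIT

open Subgroup MulAction Cfsg.Agent.H64.Bend

universe u

variable {G : Type u} [Group G] [Finite G]

/-- groups with commuting involutions equal -/
theorem not_rank_one' (hO : ∀ N : Subgroup G, N.Normal → Odd (Nat.card N) → N = ⊥)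
    (hO2 : ∀ N : Subgroup G, N.Normal → IsPGroup 2 N → N = ⊥) {t : G} (ht : Iv t)
    (h1 : ∀ x y : G, Iv x → Iv y → x * y = y * x → x = y) : False := by
  obtain ⟨N, hN, hodd, h2⟩ := zstar_type ht h1
  have h3 := hO N hN hodd
  have h4 : ∀ s : G, Iv s → s = t := by
    intro s hs
    obtain ⟨o, ho, rfl⟩ := h2 s hs
    rw [h3, Subgroup.mem_bot] at ho
    rw [ho, one_mul]
  have h5 : (zpowers t).Normal := by
    constructor
    intro n hn g
    obtain ⟨k, rfl⟩ := mem_zpowers_iff.mp hn
    have : g * t ^ k * g⁻¹ = (g * t * g⁻¹) ^ k := (conj_zpow).symm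
    rw [this, h4 _ (ht.conj g)]
    exact zpow_mem (mem_zpowers t) k
  have h6 : IsPGroup 2 (zpowers t) := by
    apply IsPGroup.of_card (n := 1)
    rw [Nat.card_zpowers, iv_iff.1 ht, pow_one]
  have h7 := hO2 _ h5 h6
  exact ht.2 (zpowers_eq_bot.mp h7)

/-- the 2-elements of a nilpotent subgroup containing a Sylow 2-subgroup -/
theorem mem_of_nilp {C : Subgroup G} (hC : Group.IsNilpotent C) (S : Sylow 2 G) (hSC : (S : Subgroup G) ≤ C)
    {a : G} (ha : a ∈ C) (h2 : ∃ k, orderOf a = 2 ^ k) : a ∈ S := by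
  haveI : Fact (Nat.Prime 2) := ⟨Nat.prime_two⟩
  have h0 : ∀ (p : ℕ) (_hp : Fact p.Prime) (P : Sylow p C), (P : Subgroup C).Normal :=
    (Group.isNilpotent_of_finite_tfae (G := C)).out 0 3 |>.mp hC
  have hn : ((S.subtype hSC : Sylow 2 C) : Subgroup C).Normal := h0 2 inferInstance _
  obtain ⟨k, hk⟩ := h2
  have h1 : IsPGroup 2 (zpowers (⟨a, ha⟩ : C)) := by
    apply IsPGroup.of_card (n := k)
    rw [Nat.card_zpowers, ← hk]
    exact (orderOf_coe (⟨a, ha⟩ : C)).symm
  obtain ⟨R, hR⟩ := h1.exists_le_sylow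
  have h3 : R = S.subtype hSC := by
    haveI := Sylow.unique_of_normal _ hn
    exact Subsingleton.elim _ _
  rw [h3] at hR
  exact hR (mem_zpowers _)

theorem mem_of_pow_mem_of_coprime {K : Subgroup G} {x : G} {m n : ℕ} (hmn : Nat.Coprime m n) (h1 : x ^ m ∈ K)
    (h2 : x ^ n ∈ K) : x ∈ K := by
  have h := Nat.gcd_eq_gcd_ab m n
  rw [hmn] at h
  have e : x = (x ^ m) ^ (m.gcdA n) * (x ^ n) ^ (m.gcdB n) := by
    rw [← zpow_natCast x m, ← zpow_natCast x n, ← zpow_mul, ← zpow_mul, ← zpow_add, ← h]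
    simp
  rw [e]
  exact mul_mem (zpow_mem h1 _) (zpow_mem h2 _)

/-- CN-groups without solvable normal subgroups are CIT-groups -/
theorem cn_cit (hCN : ∀ g : G, g ≠ 1 → Group.IsNilpotent (centralizer ({g} : Set G)))
    (hO : ∀ N : Subgroup G, N.Normal → Odd (Nat.card N) → N = ⊥)
    (hO2 : ∀ N : Subgroup G, N.Normal → IsPGroup 2 N → N = ⊥)
    (hFT : ∀ D : Subgroup G, Odd (Nat.card D) → Group.IsSolvable D) : IsCIT G := by
  classical
  haveI : Fact (Nat.Prime 2) := ⟨Nat.prime_two⟩
  -- commuting of coprime elements in centralizers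
  have hcc : ∀ g x y : G, g ≠ 1 → x * g = g * x → y * g = g * y → (∃ k, orderOf x = 2 ^ k) → Odd (orderOf y) →
      x * y = y * x := by
    intro g x y hg hx hy hx2 hy2
    obtain ⟨k, hk⟩ := hx2
    have h1 := Cfsg.Agent.H52.commute_of_isNilpotent_of_coprime (hCN g hg)
      (x := ⟨x, mem_centralizer_singleton_iff.mpr hx⟩) (y := ⟨y, mem_centralizer_singleton_iff.mpr hy⟩) (by
        rw [orderOf_mk, orderOf_mk, hk]
        exact Nat.Coprime.pow_left k (Nat.coprime_two_left.mpr hy2))
    exact congrArg Subtype.val h1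
  -- reduction to a central involution
  have main : ∀ (S : Sylow 2 G) (z : G), Iv z → z ∈ S → (∀ s ∈ S, s * z = z * s) →
      ∀ y : G, y * z = z * y → Odd (orderOf y) → y = 1 := by
    intro S z hz hzS hzc y hyz hy
    by_contra hy1
    have hS2 : ∀ s ∈ S, ∃ k, orderOf s = 2 ^ k := fun s hs => by
      obtain ⟨k, hk⟩ := IsPGroup.iff_orderOf.mp S.2 ⟨s, hs⟩
      exact ⟨k, by rw [← hk]; exact orderOf_coe (⟨s, hs⟩ : (S : Subgroup G))⟩
    have hz2 : ∃ k, orderOf z = 2 ^ k := hS2 z hzS
    -- A1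
    have A1 : ∀ s ∈ S, s ≠ 1 → ∀ b : G, Odd (orderOf b) → b * s = s * b → b * z = z * b := by
      intro s hs hs1 b hb hbs
      exact (hcc s z b hs1 (hzc s hs).symm hbs hz2 hb).symm
    have A2 : ∀ s ∈ S, ∀ b : G, Odd (orderOf b) → b * z = z * b → b * s = s * b := by
      intro s hs b hb hbz
      exact (hcc z s b hz.2 (hzc s hs) hbz (hS2 s hs) hb).symm
    have B1 : ∀ b : G, b ≠ 1 → Odd (orderOf b) → b * z = z * b → ∀ a : G, (∃ k, orderOf a = 2 ^ k) →
        a * b = b * a → a ∈ S := by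
      intro b hb1 hb hbz a ha hab
      apply mem_of_nilp (hCN b hb1) S _ (mem_centralizer_singleton_iff.mpr hab) ha
      intro s hs
      exact mem_centralizer_singleton_iff.mpr (A2 s hs b hb hbz).symm
    have hconj : ∀ g x : G, orderOf (g * x * g⁻¹) = orderOf x := fun g x => StrEmb.orderOf_conj g x
    have hcomm : ∀ g x w : G, x * w = w * x → (g * x * g⁻¹) * (g * w * g⁻¹) = (g * w * g⁻¹) * (g * x * g⁻¹) := by
      intro g x w h
      calc (g * x * g⁻¹) * (g * w * g⁻¹) = g * (x * w) * g⁻¹ := by group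
        _ = g * (w * x) * g⁻¹ := by rw [h]
        _ = _ := by group
    have C1 : ∀ s ∈ S, s ≠ 1 → ∀ g : G, g * s * g⁻¹ ∈ S → ∀ r ∈ S, g * r * g⁻¹ ∈ S := by
      intro s hs hs1 g hg r hr
      have h1 : (g * y * g⁻¹) * z = z * (g * y * g⁻¹) := by
        apply A1 _ hg (fun h => hs1 (by
          calc s = g⁻¹ * (g * s * g⁻¹) * g := by group
            _ = 1 := by rw [h]; group)) _ (by rw [hconj]; exact hy)
        exact hcomm g y s (A2 s hs y hy hyz)
      apply B1 (g * y * g⁻¹) (fun h => hy1 (by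
          calc y = g⁻¹ * (g * y * g⁻¹) * g := by group
            _ = 1 := by rw [h]; group)) (by rw [hconj]; exact hy) h1 _ (by rw [hconj]; exact hS2 r hr)
      exact hcomm g r y (A2 r hr y hy hyz).symm
    set H := normalizer ((S : Subgroup G) : Set G) with hH
    have C2 : ∀ s ∈ S, s ≠ 1 → ∀ g : G, g * s * g⁻¹ ∈ S → g ∈ H := by
      intro s hs hs1 g hg
      rw [hH, mem_normalizer_iff]
      intro r
      constructor
      · intro hr; exact C1 s hs hs1 g hg r hr
      · intro hr
        have h1 : g⁻¹ * (g * s * g⁻¹) * g⁻¹⁻¹ = s := by group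
        have h2 := C1 (g * s * g⁻¹) hg (fun h => hs1 (by
          calc s = g⁻¹ * (g * s * g⁻¹) * g := by group
            _ = 1 := by rw [h]; group)) g⁻¹ (by rw [h1]; exact hs) _ hr
        have h3 : g⁻¹ * (g * r * g⁻¹) * g⁻¹⁻¹ = r := by group
        rwa [h3] at h2
    have hSH : (S : Subgroup G) ≤ H := le_normalizer
    have hHc : ∀ h ∈ H, ∀ s ∈ S, h * s * h⁻¹ ∈ S := fun h hh s hs => (mem_normalizer_iff.mp hh s).mp hs
    -- 2-elements of `H`
    have hHS : ∀ x ∈ H, (∃ k, orderOf x = 2 ^ k) → x ∈ S := by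
      intro x hx hx2
      have hn : ((S.subtype hSH : Sylow 2 H) : Subgroup H).Normal := by
        constructor
        intro n hn g
        exact hHc g g.2 n hn
      obtain ⟨k, hk⟩ := hx2
      have h1 : IsPGroup 2 (zpowers (⟨x, hx⟩ : H)) := by
        apply IsPGroup.of_card (n := k)
        rw [Nat.card_zpowers, ← hk]
        exact (orderOf_coe (⟨x, hx⟩ : H)).symm
      obtain ⟨R, hR⟩ := h1.exists_le_sylow
      have h3 : R = S.subtype hSH := by
        haveI := Sylow.unique_of_normal _ hn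
        exact Subsingleton.elim _ _
      rw [h3] at hR
      exact hR (mem_zpowers _)
    have hHtop : H ≠ ⊤ := by
      intro h
      have h1 : ((S : Subgroup G)).Normal := normalizer_eq_top_iff.mp h
      have h2 := hO2 _ h1 S.2
      have : z ∈ (⊥ : Subgroup G) := h2 ▸ hzS
      exact hz.2 (mem_bot.mp this)
    have hzo : orderOf z = 2 := iv_iff.1 hz
    have hHev : Even (Nat.card H) := by
      rw [even_iff_two_dvd, ← hzo]
      exact Subgroup.orderOf_dvd_natCard H (hSH hzS)
    have hM : Cfsg.IsStronglyEmbedded H := by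
      rw [Cfsg.Agent.H80.stronglyEmbedded_iff hHtop hHev]
      intro t ht ht2 g hg
      have h1 : t ∈ S := hHS t ht ⟨1, by rw [ht2, pow_one]⟩
      have h2 : g⁻¹ * t * g⁻¹⁻¹ ∈ S := by
        apply hHS
        · rw [inv_inv]; exact hg
        · exact ⟨1, by rw [hconj, ht2, pow_one]⟩
      have h3 := C2 t h1 (fun h => by rw [h, orderOf_one] at ht2; omega) g⁻¹ h2
      exact (inv_mem_iff).mp h3
    have hB := bset_of_stronglyEmbedded hM
    set a : G ⧸ H := QuotientGroup.mk (1 : G) with ha
    have hsa : stabilizer G a = H := by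
      ext x
      rw [MulAction.mem_stabilizer_iff, ha, Cfsg.Agent.StrEmb.smul_mk_eq_iff]
      simp
    have hinv : ∀ x ∈ H, x * x = 1 → x ∈ S := by
      intro x hx hxx
      apply hHS x hx
      by_cases h : x = 1
      · exact ⟨0, by rw [h, orderOf_one, pow_zero]⟩
      · exact ⟨1, by rw [pow_one]; exact orderOf_eq_prime (by rw [pow_two]; exact hxx) h⟩
    have hcl : ∀ x ∈ H, ∀ y ∈ H, x * x = 1 → y * y = 1 → ∃ k : ℕ, (x * y) ^ (2 ^ k) = 1 := by
      intro x hx y hy hxx hyy
      obtain ⟨k, hk⟩ := S.2 ⟨x * y, mul_mem (hinv x hx hxx) (hinv y hy hyy)⟩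
      exact ⟨k, congrArg Subtype.val hk⟩
    -- the centralizer of `z`
    set L := centralizer ({z} : Set G) with hL
    have hmL : ∀ x : G, x ∈ L ↔ x * z = z * x := fun x => mem_centralizer_singleton_iff
    have hLH : L ≤ H := by
      intro g hg
      apply C2 z hzS hz.2
      have : g * z * g⁻¹ = z := by rw [(hmL g).mp hg]; group
      rw [this]; exact hzS
    have hLconj : ∀ h ∈ H, ∀ x ∈ L, h * x * h⁻¹ ∈ L := by
      intro h hh x hx
      -- `x` centralizes `z' = h⁻¹ z h`, which is central in `S`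
      set z' := h⁻¹ * z * h with hz'
      have hz'S : z' ∈ S := by
        have := hHc h⁻¹ (inv_mem hh) z hzS
        rwa [inv_inv] at this
      have hz'1 : z' ≠ 1 := by
        intro h1
        apply hz.2
        calc z = h * z' * h⁻¹ := by rw [hz']; group
          _ = 1 := by rw [h1]; group
      have hz'c : ∀ s ∈ S, s * z' = z' * s := by
        intro s hs
        have h1 := hzc _ (hHc h hh s hs)
        calc s * z' = h⁻¹ * ((h * s * h⁻¹) * z) * h := by rw [hz']; group
          _ = h⁻¹ * (z * (h * s * h⁻¹)) * h := by rw [h1]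
          _ = z' * s := by rw [hz']; group
      have hxz' : x ∈ centralizer ({z'} : Set G) := by
        obtain ⟨k, m, hm, hk⟩ := Nat.exists_eq_two_pow_mul_odd (orderOf_pos x).ne'
        have hxL := (hmL x).mp hx
        have c1 : x ^ m * z = z * x ^ m := (Commute.pow_left (show Commute x z from hxL) m)
        have c2 : x ^ (2 ^ k) * z = z * x ^ (2 ^ k) := (Commute.pow_left (show Commute x z from hxL) _)
        have o1 : orderOf (x ^ m) = 2 ^ k := by
          rw [orderOf_pow, hk, Nat.gcd_eq_right (Dvd.intro_left _ rfl), Nat.mul_div_cancel _ hm.pos]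
        have o2 : orderOf (x ^ (2 ^ k)) = m := by
          rw [orderOf_pow, hk, Nat.gcd_eq_right (Dvd.intro _ rfl), Nat.mul_div_cancel_left _ (by positivity)]
        apply mem_of_pow_mem_of_coprime (m := m) (n := 2 ^ k) ((Nat.coprime_two_right.2 hm).pow_right k)
        · rw [mem_centralizer_singleton_iff]
          apply hz'c
          apply mem_of_nilp (hCN z hz.2) S _ ((hmL _).mpr c1) ⟨k, o1⟩
          intro s hs
          exact (hmL s).mpr (hzc s hs)
        · rw [mem_centralizer_singleton_iff]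
          exact A2 z' hz'S _ (by rw [o2]; exact hm) c2
      rw [hmL]
      have h1 := mem_centralizer_singleton_iff.mp hxz'
      calc h * x * h⁻¹ * z = h * (x * z') * h⁻¹ := by rw [hz']; group
        _ = h * (z' * x) * h⁻¹ := by rw [h1]
        _ = z * (h * x * h⁻¹) := by rw [hz']; group
    -- key: odd elements of `L` and their conjugates
    have key : ∀ v : G, v ∉ H → ∀ w : G, w * z = z * w → Odd (orderOf w) →
        (v⁻¹ * w * v) * z = z * (v⁻¹ * w * v) → w = 1 := by
      intro v hv w hw hwo hwv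
      by_contra hw1
      apply hv
      apply C2 z hzS hz.2
      apply B1 w hw1 hwo hw _ (by rw [hconj]; exact hz2)
      calc v * z * v⁻¹ * w = v * (z * (v⁻¹ * w * v)) * v⁻¹ := by group
        _ = v * ((v⁻¹ * w * v) * z) * v⁻¹ := by rw [hwv]
        _ = w * (v * z * v⁻¹) := by group
    have hreg : ∀ g : G, g ∉ H → ∀ u ∈ L, g⁻¹ * (u * g) ∈ H → u = 1 := by
      intro g hg u hu hug
      by_contra hu1
      have hab : a ≠ (QuotientGroup.mk g : G ⧸ H) := Cfsg.Agent.StrEmb.mk_one_ne_mk hg
      set b : G ⧸ H := QuotientGroup.mk g with hb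
      have hD : u ∈ Da G a b := by
        rw [mem_Da]
        constructor
        · have : u ∈ stabilizer G a := by rw [hsa]; exact hLH hu
          exact this
        · rw [Cfsg.Agent.StrEmb.smul_mk_eq_iff, mul_assoc]; exact hug
      have hDodd : ∀ x ∈ Da G a b, Odd (orderOf x) := fun x hx =>
        (hB.odd_Da hab).of_dvd_nat (Subgroup.orderOf_dvd_natCard _ hx)
      have hDH : ∀ x ∈ Da G a b, x ∈ H := by
        intro x hx
        rw [← hsa]
        exact (mem_inf.mp hx).1
      obtain ⟨v, hv, hvab⟩ := hB.Ua_nonempty hab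
      have hvba : v • b = a := hv.swap hvab
      have hvinv : v⁻¹ = v := hv.inv
      have hvH : v ∉ H := by
        intro hh
        rw [← hsa, MulAction.mem_stabilizer_iff, hvab] at hh
        exact hab hh.symm
      set u' := v * u * v⁻¹ with hu'
      have hu'D : u' ∈ Da G a b := by
        rw [mem_Da] at hD ⊢
        constructor
        · rw [hu', mul_smul, mul_smul, hvinv, hvab, hD.2, hvba]
        · rw [hu', mul_smul, mul_smul, hvinv, hvba, hD.1, hvab]
      have hu'H := hDH _ hu'D
      have huL := (hmL u).mp hu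
      set w := u' * u * u'⁻¹ * u⁻¹ with hw
      have hwL : w ∈ L := mul_mem (hLconj u' hu'H u hu) (inv_mem hu)
      have hwD : w ∈ Da G a b := mul_mem (mul_mem (mul_mem hu'D hD) (inv_mem hu'D)) (inv_mem hD)
      have hwv : v⁻¹ * w * v ∈ L := by
        have e : v⁻¹ * w * v = u * (u' * u⁻¹ * u'⁻¹) := by
          rw [hw, hu']
          rw [hvinv]
          have e1 : v * v = 1 := hv.1
          calc v * (v * u * v * u * (v * u * v)⁻¹ * u⁻¹) * v
              = (v * v) * u * v * u * (v⁻¹ * u⁻¹ * v⁻¹) * u⁻¹ * v := by group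
            _ = u * (v * u * v * u⁻¹ * (v * u * v)⁻¹) := by
                rw [e1, hvinv, one_mul, mul_inv_rev, mul_inv_rev, hvinv]
                group
        rw [e]
        exact mul_mem hu (hLconj u' hu'H _ (inv_mem hu))
      have hw1 : w = 1 := key v hvH w ((hmL w).mp hwL) (hDodd w hwD) ((hmL _).mp hwv)
      have huu' : u' * u = u * u' := by
        rw [hw] at hw1
        have := mul_inv_eq_one.mp hw1
        calc u' * u = (u' * u * u'⁻¹) * u' := by group
          _ = u * u' := by rw [this]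
      have h3 : u' * z = z * u' := (hcc u z u' hu1 huL.symm huu' hz2 (hDodd _ hu'D)).symm
      have h4 : u' = 1 := by
        apply key v hvH u' h3 (hDodd _ hu'D)
        have : v⁻¹ * u' * v = u := by rw [hu']; group
        rw [this]; exact huL
      apply hu1
      calc u = v⁻¹ * u' * v := by rw [hu']; group
        _ = 1 := by rw [h4]; group
    -- another involution of `H`
    obtain ⟨z', hz', hz'H, hzz'⟩ : ∃ z', Iv z' ∧ z' ∈ H ∧ z ≠ z' := by
      by_contra hcon
      push Not at hcon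
      apply not_rank_one' hO hO2 hz
      intro x y hx hy hxy
      obtain ⟨c, hc⟩ := hB.fix x hx
      have hyc : y • c = c := hB.cent_fix hx hc hxy.symm
      obtain ⟨g, hg⟩ := hB.trans c a
      have key : ∀ w : G, Iv w → w • c = c → g * w * g⁻¹ = z := by
        intro w hw hwc
        symm
        apply hcon _ (hw.conj g)
        have : g * w * g⁻¹ ∈ stabilizer G a := by
          rw [MulAction.mem_stabilizer_iff, mul_smul, mul_smul, ← hg, inv_smul_smul, hwc]
        rwa [hsa] at this
      have e := (key x hx hc).trans (key y hy hyc).symm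
      exact mul_left_cancel (mul_right_cancel e)
    -- transitivity
    have htrans : ∀ g₁ g₂ : G, g₁ ∉ H → g₂ ∉ H → ∃ u ∈ L, g₂⁻¹ * (u * g₁) ∈ H := by
      intro g₁ g₂ hg₁ hg₂
      set b : G ⧸ H := QuotientGroup.mk g₁ with hb
      have hab : a ≠ b := Cfsg.Agent.StrEmb.mk_one_ne_mk hg₁
      have hac : a ≠ (QuotientGroup.mk g₂ : G ⧸ H) := Cfsg.Agent.StrEmb.mk_one_ne_mk hg₂
      obtain ⟨v, hv, hvab⟩ := hB.Ua_nonempty hab
      have hvM : v ∉ H := by
        intro hh
        rw [← hsa, MulAction.mem_stabilizer_iff, hvab] at hh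
        exact hab hh.symm
      have h2t := two_transitive_of_stronglyEmbedded hM hcl (hSH hzS) hz'H hz hz' hzz' hab hac
      have c1 := Cfsg.Agent.LE.card_clSet H z
      have c2 : Cfsg.Agent.LE.clSet H z = Ia G a := by
        ext s
        constructor
        · rintro ⟨g, hg, rfl⟩
          exact mem_Ia_one.2 ⟨hz.conj g, mul_mem (mul_mem hg (hSH hzS)) (inv_mem hg)⟩
        · intro hs
          obtain ⟨h3, h4⟩ := mem_Ia_one.1 hs
          obtain ⟨d, hd, h5⟩ := se_conj hM hvM (iv_iff.1 hv) (hSH hzS) (iv_iff.1 hz) h4 (iv_iff.1 h3)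
          exact ⟨d, hd, h5⟩
      rw [c2] at c1
      have hC : (H ⊓ centralizer ({z} : Set G) : Subgroup G) = L := inf_eq_right.mpr hLH
      rw [hC] at c1
      have c3 : Nat.card (Ia G a) ∣ Nat.card (Da G a b) := by
        rw [hB.card_Ia_eq a b]
        exact hB.card_Ia_dvd hab
      have hDM : Da G a b ≤ H := by
        intro x hx
        rw [← hsa]
        exact (mem_inf.mp hx).1
      have o1 := Subgroup.card_mul_index (stabilizer H b)
      rw [MulAction.index_stabilizer] at o1
      have o2 : Nat.card (stabilizer H b) = Nat.card (Da G a b) := by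
        apply Nat.card_congr
        refine ⟨fun x => ⟨(x : H), ?_⟩, fun x => ⟨⟨(x : G), hDM x.2⟩, ?_⟩, fun x => rfl, fun x => rfl⟩
        · rw [mem_Da]
          refine ⟨?_, x.2⟩
          have : ((x : H) : G) ∈ stabilizer G a := by rw [hsa]; exact (x : H).2
          exact this
        · exact (mem_Da.mp x.2).2
      have hpos : 0 < Nat.card (Da G a b) := Nat.card_pos
      have o4 : (orbit L b).ncard = Nat.card L := by
        rw [← MulAction.index_stabilizer]
        have : stabilizer L b = ⊥ := by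
          rw [eq_bot_iff]
          intro u hu
          have h3 : (u : G) • b = b := hu
          rw [hb, Cfsg.Agent.StrEmb.smul_mk_eq_iff, mul_assoc] at h3
          exact Subtype.ext (hreg g₁ hg₁ u u.2 h3)
        rw [this, index_bot]
      have o5 : orbit L b ⊆ orbit H b := by
        rintro _ ⟨u, rfl⟩
        exact ⟨⟨u, hLH u.2⟩, rfl⟩
      have o6 : orbit L b = orbit H b := by
        apply Set.eq_of_subset_of_ncard_le o5 _ (Set.toFinite _)
        rw [o4]
        rw [o2, ← c1] at o1
        -- |D| * |orbit| = m |L| and m ≤ |D|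
        have hm : Nat.card (Ia G a) ≤ Nat.card (Da G a b) := Nat.le_of_dvd hpos c3
        by_contra hlt
        push Not at hlt
        have h1 : Nat.card (Ia G a) * Nat.card L < Nat.card (Da G a b) * (orbit H b).ncard :=
          lt_of_le_of_lt (Nat.mul_le_mul_right _ hm) (Nat.mul_lt_mul_of_pos_left hlt hpos)
        omega
      obtain ⟨g, h6, h7⟩ := h2t
      have hgM : g ∈ H := by rw [← hsa]; exact h6
      have : (QuotientGroup.mk g₂ : G ⧸ H) ∈ orbit L b := by
        rw [o6]; exact ⟨⟨g, hgM⟩, h7⟩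
      obtain ⟨u, hu⟩ := this
      refine ⟨u, u.2, ?_⟩
      have hu' : (QuotientGroup.mk ((u : G) * g₁) : G ⧸ H) = QuotientGroup.mk g₂ := hu
      exact QuotientGroup.eq.mp hu'.symm
    have hLn : (L.subgroupOf H).Normal := by
      constructor
      intro n hn g
      exact hLconj g g.2 n hn
    obtain ⟨t, hS⟩ := RK.setup_of_stronglyEmbedded H hM L hLH hLn htrans hreg
    have h2' : ∃ x y : G, x ≠ 1 ∧ y ≠ 1 ∧ x ≠ y ∧ x * x = 1 ∧ y * y = 1 ∧ x * y = y * x :=
      ⟨z, z', hz.2, hz'.2, hzz', hz.1, hz'.1, (hzc z' (hinv z' hz'H hz'.1)).symm⟩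
    obtain ⟨C, hRS⟩ := RK.exists_RS hS h2' (H38.OddTrans.inverted_cyclic hS h2' (hFT _ hS.odd_card))
    have hyL : y ∈ L := (hmL y).mpr hyz
    have hyno : ¬ ∃ k, orderOf y = 2 ^ k := by
      rintro ⟨k, hk⟩
      rcases Nat.eq_zero_or_pos k with rfl | hk0
      · exact hy1 (orderOf_eq_one_iff.mp (by rw [hk, pow_zero]))
      · rw [hk] at hy
        exact (Nat.not_odd_iff_even.mpr ((Nat.even_pow).mpr ⟨even_two, hk0.ne'⟩)) hy
    rcases hRS.trichotomy with h1 | ⟨h1, -, -⟩ | ⟨h1, -, -⟩
    · apply hyno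
      refine ⟨1, ?_⟩
      rw [pow_one]
      exact orderOf_eq_prime (by rw [pow_two]; exact h1 y hyL) hy1
    · obtain ⟨k, hk⟩ := IsPGroup.iff_orderOf.mp h1 ⟨y, hyL⟩
      exact hyno ⟨k, by rw [← hk]; exact orderOf_coe (⟨y, hyL⟩ : L)⟩
    · obtain ⟨k, hk⟩ := IsPGroup.iff_orderOf.mp h1 ⟨y, hyL⟩
      exact hyno ⟨k, by rw [← hk]; exact orderOf_coe (⟨y, hyL⟩ : L)⟩
  -- the general involution
  intro t ht
  have htp : IsPGroup 2 (zpowers t) := by
    apply IsPGroup.of_card (n := 1)
    rw [Nat.card_zpowers, ht, pow_one]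
  obtain ⟨S, hS⟩ := htp.exists_le_sylow
  have htS : t ∈ S := hS (mem_zpowers t)
  have ht1 : t ≠ 1 := fun h => by rw [h, orderOf_one] at ht; omega
  haveI : Nontrivial (S : Subgroup G) := ⟨⟨⟨t, htS⟩, 1, fun h => ht1 (congrArg Subtype.val h)⟩⟩
  have hcn := S.2.center_nontrivial
  have hcp : IsPGroup 2 (center (S : Subgroup G)) := S.2.to_subgroup _
  obtain ⟨n, hn, hc⟩ := (IsPGroup.nontrivial_iff_card hcp).mp hcn
  obtain ⟨z, hz⟩ := exists_prime_orderOf_dvd_card' (G := center (S : Subgroup G)) 2 (by rw [hc]; exact dvd_pow_self 2 hn.ne')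
  set z0 : G := ((z : (S : Subgroup G)) : G) with hz0
  have hz2 : orderOf z0 = 2 := by
    rw [hz0, orderOf_coe, orderOf_coe]; exact hz
  have hzi : Iv z0 := iv_iff.2 hz2
  have hzc : ∀ s ∈ S, s * z0 = z0 * s := by
    intro s hs
    exact congrArg Subtype.val (mem_center_iff.mp z.2 ⟨s, hs⟩)
  have hm := main S z0 hzi (z : (S : Subgroup G)).2 hzc
  -- odd elements of the centralizer are trivial
  have hodd : ∀ y : G, y * t = t * y → Odd (orderOf y) → y = 1 := by
    intro y hy hyo
    apply hm y _ hyo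
    exact (hcc t z0 y ht1 (hzc t htS).symm hy ⟨1, by rw [hz2, pow_one]⟩ hyo).symm
  rintro ⟨x, hx⟩
  have hxt := mem_centralizer_singleton_iff.mp hx
  obtain ⟨k, m, hmo, hk⟩ := Nat.exists_eq_two_pow_mul_odd (orderOf_pos x).ne'
  refine ⟨k, Subtype.ext ?_⟩
  change x ^ 2 ^ k = 1
  apply hodd _ (Commute.pow_left (show Commute x t from hxt) _)
  rw [orderOf_pow, hk, Nat.gcd_eq_right (Dvd.intro _ rfl), Nat.mul_div_cancel_left _ (by positivity)]
  exact hmo

end Cfsg.Agent.CIT
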