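import Cfsg.Agent.ChevWeyl.Poin

set_option autoImplicit false

/-!
Generating function of the parabolic subgroup of type A5 in E6 (helper57).
-/

namespace Cfsg.Agent.CIT.E6Cls

open Cfsg.Agent.ChevWeyl

noncomputable def tA : STab where
  l := 6
  m := 6
  A := 14594211563417558476301175484342195710363530
  J := 61
  J' := 60
  k := 0
  wt := 13200436334043047907449557862674474263414936
  a := 30502994284558945470830705411367182798972300158255107087595862854798947673996001280
  x0 := 1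
  d := 4410965032965
  cs := [1, 1, 1, 1, 1, 1]
theorem tA_ok : tA.ok = true := by decide +kernel

noncomputable def tB : STab where
  l := 6
  m := 5
  A := 14594211563417558476301175484342195710363530
  J := 60
  J' := 28
  k := 5
  wt := 791998347487383727606084519809616008
  a := 108262681339907957385733623367059633040786307757957011753575508869120
  x0 := 4
  d := 67305985
  cs := [1, 1, 1, 1, 1]
theorem tB_ok : tB.ok = true := by decide +kernel

lemma tA_A : ∀ i j : Fin 6, cmE6 i j = tA.Af i j := by decide +kernel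
lemma tB_A : ∀ i j : Fin 6, cmE6 i j = tB.Af i j := by decide +kernel

lemma tA_poin {n : ℕ} (D : RootPerm 6 n) (hA : ∀ i j : Fin 6, D.m i (D.p j) = cmE6 i j)
    {R : Type*} [CommRing R] (q : R) :
    (q - 1) * D.PoinJ (STab.maskSet 6 61) q =
      ((q^6-1)) * D.PoinJ (STab.maskSet 6 60) q := by
  have h := STab.poin tA_ok D (fun i j => (hA i j).trans (tA_A i j)) q
  rw [horner_eq] at h
  have h2 : horner q tA.cs = horner q [1, 1, 1, 1, 1, 1] := rfl
  rw [h2] at h
  have h3 : (q - 1) * horner q [1, 1, 1, 1, 1, 1] = (q^6-1) := by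
    simp only [horner]; push_cast; ring
  have h4 : D.PoinJ (STab.maskSet 6 61) q = horner q [1, 1, 1, 1, 1, 1] * D.PoinJ (STab.maskSet 6 60) q := h
  rw [h4, ← mul_assoc, h3]

lemma tB_poin {n : ℕ} (D : RootPerm 6 n) (hA : ∀ i j : Fin 6, D.m i (D.p j) = cmE6 i j)
    {R : Type*} [CommRing R] (q : R) :
    (q - 1) * D.PoinJ (STab.maskSet 6 60) q =
      ((q^5-1)) * D.PoinJ (STab.maskSet 6 28) q := by
  have h := STab.poin tB_ok D (fun i j => (hA i j).trans (tB_A i j)) q
  rw [horner_eq] at h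
  have h2 : horner q tB.cs = horner q [1, 1, 1, 1, 1] := rfl
  rw [h2] at h
  have h3 : (q - 1) * horner q [1, 1, 1, 1, 1] = (q^5-1) := by
    simp only [horner]; push_cast; ring
  have h4 : D.PoinJ (STab.maskSet 6 60) q = horner q [1, 1, 1, 1, 1] * D.PoinJ (STab.maskSet 6 28) q := h
  rw [h4, ← mul_assoc, h3]

theorem poinA5 {n : ℕ} (D : RootPerm 6 n) (hA : ∀ i j : Fin 6, D.m i (D.p j) = cmE6 i j)
    {R : Type*} [CommRing R] (q : R) :
    (q - 1) ^ 5 * D.PoinJ (STab.maskSet 6 61) q = (q ^ 2 - 1) * (q ^ 3 - 1) * (q ^ 4 - 1) * (q ^ 5 - 1) * (q ^ 6 - 1) := by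
  have h0 := tA_poin D hA q
  have h1 := tB_poin D hA q
  have h3 := tabE6_3_poin D hA q
  have h4 := tabE6_4_poin D hA q
  have h5 := tabE6_5_poin D hA q
  rw [maskSet_6_0_E6, RootPerm.PoinJ_empty, mul_one] at h5
  generalize D.PoinJ (STab.maskSet 6 61) q = P0 at *
  generalize D.PoinJ (STab.maskSet 6 60) q = P1 at *
  generalize D.PoinJ (STab.maskSet 6 28) q = P2 at *
  generalize D.PoinJ (STab.maskSet 6 12) q = P3 at *
  generalize D.PoinJ (STab.maskSet 6 4) q = P4 at *
  calc (q - 1) ^ 5 * P0 = (q - 1) ^ 4 * ((q - 1) * P0) := by ring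
    _ = (q ^ 6 - 1) * (q - 1) ^ 3 * ((q - 1) * P1) := by rw [h0]; ring
    _ = (q ^ 6 - 1) * (q ^ 5 - 1) * (q - 1) ^ 2 * ((q - 1) * P2) := by rw [h1]; ring
    _ = (q ^ 6 - 1) * (q ^ 5 - 1) * (q ^ 4 - 1) * (q - 1) * ((q - 1) * P3) := by rw [h3]; ring
    _ = (q ^ 6 - 1) * (q ^ 5 - 1) * (q ^ 4 - 1) * (q ^ 3 - 1) * ((q - 1) * P4) := by rw [h4]; ring
    _ = _ := by rw [h5]; ring

end Cfsg.Agent.CIT.E6Cls
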