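import Cfsg.Agent.ChevPG.ParCard
import Cfsg.Agent.ChevU.HighRoot
import Cfsg.Agent.CIT.E6Poin

set_option autoImplicit false
set_option linter.unusedSectionVars false
set_option linter.unusedVariables false

/-!
The class of a long root element of E6(q) (helper57).
-/

namespace Cfsg.Agent.CIT.E6Cls

open Cfsg.Lie Matrix Subgroup Cfsg.Agent.ChevU Cfsg.Agent.ChevWeyl

/-- orbit counting -/
theorem conj_card {G : Type*} [Group G] [Finite G] (z : G) :
    Nat.card {x // IsConj z x} * Nat.card (Subgroup.centralizer {z}) = Nat.card G := by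
  classical
  haveI := Fintype.ofFinite G
  have h1 := MulAction.card_orbit_mul_card_stabilizer_eq_card_group (ConjAct G) z
  rw [← Nat.card_eq_fintype_card, ← Nat.card_eq_fintype_card, ← Nat.card_eq_fintype_card,
    ← Subgroup.nat_card_centralizer_nat_card_stabilizer] at h1
  have h2 : Nat.card (MulAction.orbit (ConjAct G) z) = Nat.card {x // IsConj z x} := by
    apply Nat.card_congr
    refine Equiv.subtypeEquivRight fun x => ?_
    rw [ConjAct.mem_orbit_conjAct]
    exact isConj_comm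
  rw [← h2]
  exact h1

/-- orbit counting for a subgroup -/
theorem orb_card {G : Type*} [Group G] [Finite G] (P : Subgroup G) (t : G) :
    Nat.card {x // ∃ g ∈ P, g * t * g⁻¹ = x} * Nat.card ↥(P ⊓ Subgroup.centralizer {t}) = Nat.card P := by
  classical
  haveI := Fintype.ofFinite G
  haveI := Fintype.ofFinite P
  letI : MulAction P G := MulAction.compHom G (ConjAct.toConjAct.toMonoidHom.comp P.subtype)
  have hsm : ∀ (g : P) (x : G), g • x = (g : G) * x * (g : G)⁻¹ := fun g x => rfl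
  have h1 := MulAction.card_orbit_mul_card_stabilizer_eq_card_group P t
  rw [← Nat.card_eq_fintype_card, ← Nat.card_eq_fintype_card, ← Nat.card_eq_fintype_card] at h1
  have h2 : Nat.card (MulAction.orbit P t) = Nat.card {x // ∃ g ∈ P, g * t * g⁻¹ = x} := by
    apply Nat.card_congr
    refine Equiv.subtypeEquivRight fun x => ?_
    constructor
    · rintro ⟨g, hg⟩
      exact ⟨g, g.2, hg⟩
    · rintro ⟨g, hg, h⟩
      exact ⟨⟨g, hg⟩, h⟩
  have h3 : Nat.card (MulAction.stabilizer P t) = Nat.card ↥(P ⊓ Subgroup.centralizer {t}) := by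
    have h4 : ∀ g : P, g ∈ MulAction.stabilizer P t ↔ (g : G) ∈ Subgroup.centralizer {t} := by
      intro g
      rw [MulAction.mem_stabilizer_iff, hsm, Subgroup.mem_centralizer_singleton_iff, mul_inv_eq_iff_eq_mul]
    refine Nat.card_congr ⟨fun g => ⟨g.1.1, g.1.2, (h4 g.1).1 g.2⟩, fun g => ⟨⟨g.1, g.2.1⟩, (h4 _).2 g.2.2⟩, fun g => rfl, fun g => rfl⟩
  rw [← h2, ← h3]
  exact h1

section

variable {D : ChevalleyDatum} {F : Type*} [Field F] (R : RootFacts D) (G : Chev.Good D) (E : ChevGrp.DData D)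

include R G in
theorem mem_root {r : ℕ} {y : GL D.Idx F} : y ∈ D.rootSubgroup F r ↔ ∃ c : F, y = xr R (elemOfGood G F) r c := by
  constructor
  · intro h
    unfold ChevalleyDatum.rootSubgroup at h
    induction h using Subgroup.closure_induction with
    | mem x hx => obtain ⟨c, hc⟩ := hx; exact ⟨c, Units.ext hc⟩
    | one => exact ⟨0, by rw [xr_zero]⟩
    | mul x y _ _ ihx ihy =>
      obtain ⟨c, rfl⟩ := ihx
      obtain ⟨c', rfl⟩ := ihy
      exact ⟨c + c', by rw [xr_add]⟩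
    | inv x _ ih =>
      obtain ⟨c, rfl⟩ := ih
      exact ⟨-c, by rw [xr_inv]⟩
  · rintro ⟨c, rfl⟩
    exact subset_closure ⟨c, rfl⟩

include R G in
/-- the parabolic subgroup normalises the highest root subgroup -/
theorem par_le_normalizer {i0 : ℕ} (T : HRoot D i0) (J : Set ℕ) (hJ : i0 ∉ J) :
    D.parabolicSubgroup F J ≤ normalizer (D.rootSubgroup F (D.nroots - 1) : Set (GL D.Idx F)) := by
  have h0 := T.h0
  have hlast : D.nroots - 1 < D.nroots := by omega
  unfold ChevalleyDatum.parabolicSubgroup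
  refine sup_le (borel_le_normalizer_highest R G h0) ?_
  rw [closure_le]
  rintro g ⟨j, hj, hjr, hg⟩
  have hne : j ≠ i0 := fun h => hJ (h ▸ hj)
  have h5 : g = nU R (elemOfGood G F) (D.simple j) 1 := (eq_nU_iff R _).mpr hg
  have hcen : Subgroup.centralizer (D.rootSubgroup F (D.nroots - 1) : Set (GL D.Idx F)) ≤
      normalizer (D.rootSubgroup F (D.nroots - 1) : Set (GL D.Idx F)) := Subgroup.centralizer_le_normalizer _
  have hpos : ∀ c : F, xr R (elemOfGood G F) (D.simple j) c ∈ Subgroup.centralizer (D.rootSubgroup F (D.nroots - 1) : Set (GL D.Idx F)) := by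
    intro c
    have hs : D.IsPosRoot (D.simple j) := (R.pos_iff _ (R.simple_lt j hjr)).mpr (R.half_le_simple hjr)
    rw [Subgroup.mem_centralizer_iff]
    rintro y hy
    obtain ⟨d, rfl⟩ := (mem_root R G).1 hy
    symm
    apply commute_highest R G h0 hs.1
    · have := (R.pos_iff _ hs.1).mp hs
      have hn := R.n_eq
      rw [R.neg_eq _ hs.1]; omega
    · intro _; exact commTerms_highest R h0 hs
  have hneg : ∀ c : F, xr R (elemOfGood G F) (D.neg (D.simple j)) c ∈ Subgroup.centralizer (D.rootSubgroup F (D.nroots - 1) : Set (GL D.Idx F)) := by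
    intro c
    rw [Subgroup.mem_centralizer_iff]
    rintro y hy
    obtain ⟨d, rfl⟩ := (mem_root R G).1 hy
    symm
    apply commute_highest R G h0 (R.neg_lt (R.simple_lt j hjr))
    · rw [R.neg_neg (R.simple_lt j hjr)]; exact (T.nsn j hjr hne).1
    · intro _; exact T.cm j hjr hne
  apply hcen
  rw [h5, nU_eq]
  exact mul_mem (mul_mem (hpos _) (hneg _)) (hpos _)

include R G in
theorem par_orbit [Fintype F] {q : ℕ} (hq : Fintype.card F = q) {i0 : ℕ} (T : HRoot D i0) (J : Set ℕ) (hJ : i0 ∉ J) :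
    (q - 1) * Nat.card ↥(D.parabolicSubgroup F J ⊓ Subgroup.centralizer {xr R (elemOfGood G F) (D.nroots - 1) 1}) =
      Nat.card (D.parabolicSubgroup F J) := by
  classical
  have h0 := T.h0
  have hlast : D.nroots - 1 < D.nroots := by omega
  haveI : Finite (GL D.Idx F) := inferInstance
  have h1 := orb_card (D.parabolicSubgroup F J) (xr R (elemOfGood G F) (D.nroots - 1) 1)
  have h2 : Nat.card {x // ∃ g ∈ D.parabolicSubgroup F J, g * xr R (elemOfGood G F) (D.nroots - 1) 1 * g⁻¹ = x} = q - 1 := by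
    rw [← hq, ← Fintype.card_units, ← Nat.card_eq_fintype_card]
    symm
    refine Nat.card_congr (Equiv.ofBijective (fun c : Fˣ => (⟨xr R (elemOfGood G F) (D.nroots - 1) (c : F), ?_⟩ :
      {x // ∃ g ∈ D.parabolicSubgroup F J, g * xr R (elemOfGood G F) (D.nroots - 1) 1 * g⁻¹ = x})) ⟨?_, ?_⟩)
    · refine ⟨hHom D F (fun i => if (i : ℕ) = i0 then c else 1), ?_, ?_⟩
      · refine (le_sup_left : D.borelSubgroup F ≤ D.parabolicSubgroup F J) ?_
        refine (le_sup_right : D.diagonalSubgroup F ≤ D.borelSubgroup F) ?_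
        rw [diag_eq_range R G]
        exact ⟨_, rfl⟩
      · rw [hHom_conj R G _ hlast]
        congr 1
        rw [mul_one, Finset.prod_eq_single ⟨i0, T.hi0⟩]
        · rw [T.car _ T.hi0, if_pos rfl, if_pos rfl, _root_.zpow_one]
        · intro j _ hj
          rw [T.car j j.2, if_neg (fun h => hj (Fin.ext h)), if_neg (fun h => hj (Fin.ext h)), _root_.zpow_zero]
        · intro h; exact absurd (Finset.mem_univ _) h
    · intro c c' h
      apply Units.ext
      exact xr_injective R G hlast (congrArg Subtype.val h)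
    · rintro ⟨x, g, hg, hx⟩
      have h3 := (Subgroup.mem_normalizer_iff.1 (par_le_normalizer R G T J hJ hg)
        (xr R (elemOfGood G F) (D.nroots - 1) 1)).1 ((mem_root R G).2 ⟨1, rfl⟩)
      rw [hx] at h3
      obtain ⟨c, hc⟩ := (mem_root R G).1 h3
      have hc0 : c ≠ 0 := by
        rintro rfl
        rw [xr_zero] at hc
        rw [hc] at hx
        have h4 : xr R (elemOfGood G F) (D.nroots - 1) (1 : F) = xr R (elemOfGood G F) (D.nroots - 1) 0 := by
          rw [xr_zero]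
          have : xr R (elemOfGood G F) (D.nroots - 1) (1 : F) = g⁻¹ * (g * xr R (elemOfGood G F) (D.nroots - 1) 1 * g⁻¹) * g := by group
          rw [this, hx]; group
        exact one_ne_zero (xr_injective R G hlast h4)
      exact ⟨Units.mk0 c hc0, Subtype.ext hc.symm⟩
  rw [h2] at h1
  exact h1

include R G E in
/-- the index of the centraliser -/
theorem cls_gen [Fintype F] {q : ℕ} (hq : Fintype.card F = q) {i0 : ℕ} (T : HRoot D i0) (J : Finset (Fin D.rank))
    (hJ : ∀ j ∈ J, (j : ℕ) ≠ i0) (z : D.group F) (hz : (z : GL D.Idx F) = xr R (elemOfGood G F) (D.nroots - 1) 1) :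
    ∃ m : ℕ, Nat.card {x // IsConj z x} * m * E.rp.PoinJ J q = (q - 1) * E.rp.PoinJ Finset.univ q := by
  classical
  haveI : Finite (GL D.Idx F) := inferInstance
  set J' : Set ℕ := {i | ∃ h : i < D.rank, (⟨i, h⟩ : Fin D.rank) ∈ J} with hJ'
  have hJ0 : i0 ∉ J' := by
    rintro ⟨h, h1⟩
    exact hJ _ h1 rfl
  have h1 := conj_card z
  have h2 := ChevPG.card_par E G J hq
  rw [← hJ'] at h2
  have h3 := par_orbit R G hq T J' hJ0
  have h4 := ChevGrp.card_group_poin E G hq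
  set C := D.parabolicSubgroup F J' ⊓ Subgroup.centralizer {xr R (elemOfGood G F) (D.nroots - 1) 1} with hC
  have hPG : D.parabolicSubgroup F J' ≤ D.group F := by
    rw [← ChevPG.PJ_chev E G]
    have : D.group F = (ChevGrp.chev E G F).Grp := (ChevGrp.chev_Grp E G).symm
    rw [this]
    refine sup_le (ChevGrp.RGrp.B_le_Grp) ?_
    rw [closure_le]
    rintro x ⟨j, hj, rfl⟩
    exact ChevGrp.RGrp.N_le_Grp ((ChevGrp.chev E G F).nn_mem_N j)
  have h5 : Nat.card C ∣ Nat.card (Subgroup.centralizer {z}) := by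
    have h6 : Nat.card (C.subgroupOf (D.group F)) = Nat.card C :=
      Nat.card_congr (Subgroup.subgroupOfEquivOfLe (inf_le_left.trans hPG)).toEquiv
    rw [← h6]
    apply Subgroup.card_dvd_of_le
    intro x hx
    rw [Subgroup.mem_subgroupOf] at hx
    rw [Subgroup.mem_centralizer_singleton_iff]
    have h7 := Subgroup.mem_centralizer_singleton_iff.1 hx.2
    apply Subtype.ext
    rw [Subgroup.coe_mul, Subgroup.coe_mul, hz]
    exact h7
  obtain ⟨m, hm⟩ := h5
  refine ⟨m, ?_⟩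
  have hB : 0 < Nat.card (D.borelSubgroup F) := Nat.card_pos
  have hC0 : 0 < Nat.card C := Nat.card_pos
  apply Nat.eq_of_mul_eq_mul_left hB
  rw [hm] at h1
  calc Nat.card (D.borelSubgroup F) * (Nat.card {x // IsConj z x} * m * E.rp.PoinJ J q)
      = Nat.card {x // IsConj z x} * m * (Nat.card (D.borelSubgroup F) * E.rp.PoinJ J q) := by ring
    _ = Nat.card {x // IsConj z x} * m * ((q - 1) * Nat.card C) := by rw [← h2, h3]
    _ = (q - 1) * (Nat.card {x // IsConj z x} * (Nat.card C * m)) := by ring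
    _ = (q - 1) * (Nat.card (D.borelSubgroup F) * E.rp.PoinJ Finset.univ q) := by rw [h1, h4]
    _ = _ := by ring

end

theorem mask61 : ∀ j : Fin 6, j ∈ STab.maskSet 6 61 → (j : ℕ) ≠ 1 := by
  intro j hj
  rw [STab.mem_maskSet] at hj
  revert j
  decide +kernel

theorem poin_cast {l n : ℕ} (D : RootPerm l n) (J : Finset (Fin l)) (q : ℕ) :
    D.PoinJ J (q : ℤ) = ((D.PoinJ J q : ℕ) : ℤ) := by
  simp only [RootPerm.PoinJ]
  push_cast
  rfl

theorem arith {q c m P5 P6 : ℕ} (hq2 : 2 ≤ q) (hm : c * m * P5 = (q - 1) * P6)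
    (h1 : ((q : ℤ) - 1) ^ 5 * (P5 : ℤ) = (q ^ 2 - 1) * (q ^ 3 - 1) * (q ^ 4 - 1) * (q ^ 5 - 1) * (q ^ 6 - 1))
    (h2 : ((q : ℤ) - 1) ^ 6 * (P6 : ℤ) = (q ^ 2 - 1) * (q ^ 5 - 1) * (q ^ 6 - 1) * (q ^ 8 - 1) * (q ^ 9 - 1) * (q ^ 12 - 1)) :
    c ∣ (q ^ 4 + 1) * (q ^ 6 + q ^ 3 + 1) * (q ^ 12 - 1) := by
  have hqz : (2 : ℤ) ≤ q := by exact_mod_cast hq2
  refine ⟨m, ?_⟩
  symm
  have hm' : (c : ℤ) * m * P5 = ((q : ℤ) - 1) * P6 := by
    have h3 : ((c * m * P5 : ℕ) : ℤ) = (((q - 1) * P6 : ℕ) : ℤ) := congrArg _ hm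
    rw [Nat.cast_mul, Nat.cast_mul, Nat.cast_mul, Nat.cast_sub (by omega)] at h3
    exact_mod_cast h3
  have hne : ((q : ℤ) ^ 2 - 1) * (q ^ 3 - 1) * (q ^ 4 - 1) * (q ^ 5 - 1) * (q ^ 6 - 1) ≠ 0 := by
    have hp : ∀ k : ℕ, k ≠ 0 → ((q : ℤ) ^ k - 1) ≠ 0 := by
      intro k hk
      have := one_lt_pow₀ (show (1 : ℤ) < q by linarith) hk
      linarith
    exact mul_ne_zero (mul_ne_zero (mul_ne_zero (mul_ne_zero (hp 2 (by norm_num)) (hp 3 (by norm_num))) (hp 4 (by norm_num)))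
      (hp 5 (by norm_num))) (hp 6 (by norm_num))
  have hfin : (c : ℤ) * m = ((q : ℤ) ^ 4 + 1) * (q ^ 6 + q ^ 3 + 1) * (q ^ 12 - 1) := by
    apply mul_right_cancel₀ hne
    calc (c : ℤ) * m * (((q : ℤ) ^ 2 - 1) * (q ^ 3 - 1) * (q ^ 4 - 1) * (q ^ 5 - 1) * (q ^ 6 - 1))
        = (c : ℤ) * m * (((q : ℤ) - 1) ^ 5 * P5) := by rw [h1]
      _ = ((q : ℤ) - 1) ^ 5 * ((c : ℤ) * m * P5) := by ring
      _ = ((q : ℤ) - 1) ^ 6 * P6 := by rw [hm']; ring
      _ = (q ^ 2 - 1) * (q ^ 5 - 1) * (q ^ 6 - 1) * (q ^ 8 - 1) * (q ^ 9 - 1) * (q ^ 12 - 1) := h2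
      _ = ((q : ℤ) ^ 4 + 1) * (q ^ 6 + q ^ 3 + 1) * (q ^ 12 - 1) * ((q ^ 2 - 1) * (q ^ 3 - 1) * (q ^ 4 - 1) * (q ^ 5 - 1) * (q ^ 6 - 1)) := by ring
  have h12 : 1 ≤ q ^ 12 := Nat.one_le_pow _ _ (by omega)
  have : ((c * m : ℕ) : ℤ) = (((q ^ 4 + 1) * (q ^ 6 + q ^ 3 + 1) * (q ^ 12 - 1) : ℕ) : ℤ) := by
    rw [Nat.cast_mul, hfin]
    push_cast [Nat.cast_sub h12]
    ring
  exact_mod_cast this

theorem cls {F : Type*} [Field F] [Fintype F] {q : ℕ} (hq : Fintype.card F = q) (z : chevE6.group F)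
    (hz : ((z : GL chevE6.Idx F) : Matrix chevE6.Idx chevE6.Idx F) = chevE6.x F (chevE6.nroots - 1) 1) :
    Nat.card {x // IsConj z x} ∣ (q ^ 4 + 1) * (q ^ 6 + q ^ 3 + 1) * (q ^ 12 - 1) := by
  classical
  have hD : chevE6 ∈ [chevG2, chevB2, chevD4, chevF4, chevE6, chevE7, chevE8] := by simp
  obtain ⟨E⟩ := Cfsg.Agent.ChevGrp.DData.nonempty_of_mem hD
  have R := rootFacts hD
  have G := Cfsg.Agent.Chev.good_of_mem hD
  obtain ⟨m, hm⟩ := cls_gen R G E hq hroot_E6 (STab.maskSet 6 61) mask61 z (Units.ext hz)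
  have hq2 : 2 ≤ q := by rw [← hq]; exact Fintype.one_lt_card
  refine arith hq2 hm ?_ ?_
  · refine Eq.trans ?_ (poinA5 E.rp (Cfsg.Agent.ChevGrp.cartan_E6 E) (q : ℤ))
    exact congrArg (fun x : ℤ => ((q : ℤ) - 1) ^ 5 * x) (poin_cast E.rp (STab.maskSet 6 61) q).symm
  · refine Eq.trans ?_ (poinE6 E.rp (Cfsg.Agent.ChevGrp.cartan_E6 E) (q : ℤ))
    exact congrArg (fun x : ℤ => ((q : ℤ) - 1) ^ 6 * x) (poin_cast E.rp Finset.univ q).symm

/-- existence of the element -/
theorem exists_z {F : Type*} [Field F] [Fintype F] {q : ℕ} (hq : Fintype.card F = q) :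
    ∃ z : chevE6.group F, ((z : GL chevE6.Idx F) : Matrix chevE6.Idx chevE6.Idx F) = chevE6.x F (chevE6.nroots - 1) 1 ∧
      Nat.card {x // IsConj z x} ∣ (q ^ 4 + 1) * (q ^ 6 + q ^ 3 + 1) * (q ^ 12 - 1) := by
  have hD : chevE6 ∈ [chevG2, chevB2, chevD4, chevF4, chevE6, chevE7, chevE8] := by simp
  have R := rootFacts hD
  have G := Cfsg.Agent.Chev.good_of_mem hD
  have hlast : chevE6.nroots - 1 < chevE6.nroots := by decide
  refine ⟨⟨xr R (elemOfGood G F) (chevE6.nroots - 1) 1, xr_mem_group R (elemOfGood G F) hlast 1⟩, rfl, cls hq _ rfl⟩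

end Cfsg.Agent.CIT.E6Cls
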