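import Cfsg.Agent.CIT.E6Cls

set_option autoImplicit false
set_option linter.unusedSectionVars false
set_option linter.unusedVariables false

/-!
The class of a long root element of E8(q) (helper57).
-/

namespace Cfsg.Agent.CIT.E8Cls

open Cfsg.Lie Matrix Subgroup Cfsg.Agent.ChevU Cfsg.Agent.ChevWeyl Cfsg.Agent.CIT.E6Cls

theorem mask127 : ∀ j : Fin 8, j ∈ STab.maskSet 8 127 → (j : ℕ) ≠ 7 := by
  intro j hj
  rw [STab.mem_maskSet] at hj
  revert j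
  decide +kernel

theorem poin_pos {l n : ℕ} (D : RootPerm l n) (J : Finset (Fin l)) {q : ℕ} (hq : 0 < q) : 0 < D.PoinJ J q := by
  unfold RootPerm.PoinJ
  refine Finset.sum_pos (fun u _ => pow_pos hq _) ⟨1, ?_⟩
  rw [Set.Finite.mem_toFinset, SetLike.mem_coe]
  exact one_mem _

theorem arith {q c m P127 P : ℕ} (hq2 : 2 ≤ q) (hP : 0 < P127) (hm : c * m * P127 = (q - 1) * P)
    (h1 : ((q : ℤ) - 1) * (P : ℤ) = ((1 + q ^ 6 + q ^ 12 + q ^ 18 + q ^ 24) * (1 + q ^ 10) * (q ^ 24 - 1)) * (P127 : ℤ)) :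
    c ∣ (q ^ 12 + 1) * (q ^ 10 + 1) * (q ^ 6 + 1) * (q ^ 30 - 1) := by
  refine ⟨m, ?_⟩
  symm
  have hm' : (c : ℤ) * m * P127 = ((q : ℤ) - 1) * P := by
    have h3 : ((c * m * P127 : ℕ) : ℤ) = (((q - 1) * P : ℕ) : ℤ) := congrArg _ hm
    rw [Nat.cast_mul, Nat.cast_mul, Nat.cast_mul, Nat.cast_sub (by omega)] at h3
    exact_mod_cast h3
  have hP0 : (P127 : ℤ) ≠ 0 := by exact_mod_cast hP.ne'
  have hfin : (c : ℤ) * m = ((q : ℤ) ^ 12 + 1) * (q ^ 10 + 1) * (q ^ 6 + 1) * (q ^ 30 - 1) := by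
    apply mul_right_cancel₀ hP0
    rw [hm', h1]; ring
  have h30 : 1 ≤ q ^ 30 := Nat.one_le_pow _ _ (by omega)
  have : ((c * m : ℕ) : ℤ) = (((q ^ 12 + 1) * (q ^ 10 + 1) * (q ^ 6 + 1) * (q ^ 30 - 1) : ℕ) : ℤ) := by
    rw [Nat.cast_mul, hfin]
    push_cast [Nat.cast_sub h30]
    ring
  exact_mod_cast this

theorem cls {F : Type*} [Field F] [Fintype F] {q : ℕ} (hq : Fintype.card F = q) (z : chevE8.group F)
    (hz : ((z : GL chevE8.Idx F) : Matrix chevE8.Idx chevE8.Idx F) = chevE8.x F (chevE8.nroots - 1) 1) :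
    Nat.card {x // IsConj z x} ∣ (q ^ 12 + 1) * (q ^ 10 + 1) * (q ^ 6 + 1) * (q ^ 30 - 1) := by
  classical
  have hD : chevE8 ∈ [chevG2, chevB2, chevD4, chevF4, chevE6, chevE7, chevE8] := by simp
  obtain ⟨E⟩ := Cfsg.Agent.ChevGrp.DData.nonempty_of_mem hD
  have R := rootFacts hD
  have G := Cfsg.Agent.Chev.good_of_mem hD
  obtain ⟨m, hm⟩ := cls_gen R G E hq hroot_E8 (STab.maskSet 8 127) mask127 z (Units.ext hz)
  have hq2 : 2 ≤ q := by rw [← hq]; exact Fintype.one_lt_card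
  refine arith hq2 (poin_pos E.rp (STab.maskSet 8 127) (by omega)) hm ?_
  have h0 := tabE8_0_poin E.rp (Cfsg.Agent.ChevGrp.cartan_E8 E) (q : ℤ)
  rw [maskSet_8_255_E8] at h0
  have h1 := poin_cast E.rp (STab.maskSet 8 127) q
  have h2 := poin_cast E.rp Finset.univ q
  refine Eq.trans ?_ (h0.trans ?_)
  · exact congrArg (fun x : ℤ => ((q : ℤ) - 1) * x) h2.symm
  · exact congrArg (fun x : ℤ => ((1 + (q : ℤ) ^ 6 + q ^ 12 + q ^ 18 + q ^ 24) * (1 + q ^ 10) * (q ^ 24 - 1)) * x) h1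

/-- existence of the element -/
theorem exists_z {F : Type*} [Field F] [Fintype F] {q : ℕ} (hq : Fintype.card F = q) :
    ∃ z : chevE8.group F, ((z : GL chevE8.Idx F) : Matrix chevE8.Idx chevE8.Idx F) = chevE8.x F (chevE8.nroots - 1) 1 ∧
      Nat.card {x // IsConj z x} ∣ (q ^ 12 + 1) * (q ^ 10 + 1) * (q ^ 6 + 1) * (q ^ 30 - 1) := by
  have hD : chevE8 ∈ [chevG2, chevB2, chevD4, chevF4, chevE6, chevE7, chevE8] := by simp
  have R := rootFacts hD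
  have G := Cfsg.Agent.Chev.good_of_mem hD
  have hlast : chevE8.nroots - 1 < chevE8.nroots := by decide
  refine ⟨⟨xr R (elemOfGood G F) (chevE8.nroots - 1) 1, xr_mem_group R (elemOfGood G F) hlast 1⟩, rfl, cls hq _ rfl⟩

end Cfsg.Agent.CIT.E8Cls
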