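import Cfsg.Agent.H71.MtRel

/-!
# S4351 (Martineau), piece P9 (owner: helper57)
-/

set_option autoImplicit false
set_option linter.unusedSectionVars false
set_option linter.unusedVariables false

namespace Cfsg.Agent.CIT.MtP9

open Cfsg.Agent.H71.Mt

universe v

/-! ### duality -/

section dual

variable {V : Type v} [AddCommGroup V]

instance finDual [Finite V] : Finite (V →+ ZMod 2) :=
  Finite.of_injective (fun f : V →+ ZMod 2 => (f : V → ZMod 2)) DFunLike.coe_injective

theorem dual_two (f : V →+ ZMod 2) : f + f = 0 := by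
  ext v
  show f v + f v = 0
  exact CharTwo.add_self_eq_zero _

/-- the module structure -/
@[reducible] def modTwo (h : ∀ v : V, v + v = 0) : Module (ZMod 2) V :=
  AddCommGroup.zmodModule (n := 2) (by intro x; rw [two_smul]; exact h x)

theorem sep (h : ∀ v : V, v + v = 0) (v : V) (hv : ∀ f : V →+ ZMod 2, f v = 0) : v = 0 := by
  letI := modTwo h
  rw [← Module.forall_dual_apply_eq_zero_iff (ZMod 2)]
  intro φ
  exact hv φ.toAddMonoidHom

theorem card_dual [Finite V] (h : ∀ v : V, v + v = 0) : Nat.card (V →+ ZMod 2) = Nat.card V := by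
  letI := modTwo h
  have e : (V →+ ZMod 2) ≃ Module.Dual (ZMod 2) V :=
    ⟨fun f => f.toZModLinearMap 2, fun φ => φ.toAddMonoidHom, fun f => rfl, fun f => rfl⟩
  haveI : Finite (Module.Dual (ZMod 2) V) := Finite.of_equiv _ e
  rw [Nat.card_congr e, Module.natCard_eq_pow_finrank (K := ZMod 2), Subspace.dual_finrank_eq,
    ← Module.natCard_eq_pow_finrank (K := ZMod 2)]

theorem exists_leftInv {N M : Type*} [AddCommGroup N] [AddCommGroup M] (hN : ∀ n : N, n + n = 0)
    (hM : ∀ m : M, m + m = 0) (i : N →+ M) (hi : Function.Injective i) : ∃ p : M →+ N, ∀ n, p (i n) = n := by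
  letI := modTwo hN
  letI := modTwo hM
  obtain ⟨g, hg⟩ := LinearMap.exists_leftInverse_of_injective (i.toZModLinearMap 2) (LinearMap.ker_eq_bot.mpr hi)
  exact ⟨g.toAddMonoidHom, fun n => LinearMap.congr_fun hg n⟩

theorem dual_top [Finite V] (h : ∀ v : V, v + v = 0) (A : AddSubgroup (V →+ ZMod 2))
    (hA : ∀ v : V, (∀ f ∈ A, f v = 0) → v = 0) : A = ⊤ := by
  have hA2 : ∀ f : A, f + f = 0 := fun f => Subtype.ext (dual_two f.1)
  let ev : V → (A →+ ZMod 2) := fun v =>
    { toFun := fun f => (f : V →+ ZMod 2) v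
      map_zero' := rfl
      map_add' := fun f g => rfl }
  have hinj : Function.Injective ev := by
    intro v w hvw
    have h1 : v + w = 0 := by
      apply hA
      intro f hf
      have h2 : f v = f w := DFunLike.congr_fun hvw ⟨f, hf⟩
      rw [map_add, h2]
      exact CharTwo.add_self_eq_zero _
    have h2 : v + w + w = w := by rw [h1, zero_add]
    rwa [add_assoc, h w, add_zero] at h2
  have h1 := Nat.card_le_card_of_injective ev hinj
  rw [card_dual hA2, ← card_dual h] at h1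
  exact AddSubgroup.eq_top_of_le_card A h1

variable {X : Type*} [Group X]

/-- the dual action -/
noncomputable def dual (ρ : X →* AddMonoid.End V) : X →* AddMonoid.End (V →+ ZMod 2) where
  toFun g :=
    { toFun := fun f => f.comp (ρ g⁻¹ : V →+ V)
      map_zero' := by ext; rfl
      map_add' := by intro a b; ext; rfl }
  map_one' := by
    ext f v
    show f (ρ (1 : X)⁻¹ v) = f v
    rw [inv_one, map_one]; rfl
  map_mul' g h := by
    ext f v
    show f (ρ (g * h)⁻¹ v) = f (ρ h⁻¹ (ρ g⁻¹ v))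
    rw [mul_inv_rev, map_mul]; rfl

theorem dual_apply (ρ : X →* AddMonoid.End V) (g : X) (f : V →+ ZMod 2) (v : V) :
    dual ρ g f v = f (ρ g⁻¹ v) := rfl

theorem fpf_dual [Finite V] {ρ : X →* AddMonoid.End V} (hf : Fpf2 ρ) : Fpf2 (dual ρ) := by
  intro g hg hg1 f hfg
  let c : V → V := fun v => ρ g⁻¹ v - v
  have hinj : Function.Injective c := by
    intro v w hvw
    have h1 : ρ g⁻¹ (v - w) = v - w := by
      have h2 : ρ g⁻¹ v - v = ρ g⁻¹ w - w := hvw
      rw [map_sub]
      have h3 : ρ g⁻¹ v = ρ g⁻¹ w - w + v := by rw [← h2]; abel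
      rw [h3]; abel
    have h2 := hf g⁻¹ (by rwa [orderOf_inv]) (by rwa [Ne, inv_eq_one]) _ h1
    exact sub_eq_zero.mp h2
  have hsurj := Finite.surjective_of_injective hinj
  ext v
  obtain ⟨u, rfl⟩ := hsurj v
  have h1 := DFunLike.congr_fun hfg u
  rw [dual_apply] at h1
  show f (ρ g⁻¹ u - u) = 0
  rw [map_sub, h1, sub_self]

theorem irr_dual [Finite V] (h : ∀ v : V, v + v = 0) {ρ : X →* AddMonoid.End V} (hi : Irr2 ρ) : Irr2 (dual ρ) := by
  refine ⟨?_, ?_⟩
  · obtain ⟨v, hv⟩ := hi.1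
    by_contra hcon
    push Not at hcon
    apply hv
    apply sep h
    intro f
    rw [hcon f]; rfl
  · intro A hA
    let P : AddSubgroup V :=
      { carrier := {v | ∀ f ∈ A, f v = 0}
        zero_mem' := fun f _ => map_zero f
        add_mem' := by
          intro a b ha hb f hf
          rw [map_add, ha f hf, hb f hf, add_zero]
        neg_mem' := by
          intro a ha f hf
          rw [map_neg, ha f hf, neg_zero] }
    rcases hi.2 P (by
      intro g v hv f hf
      have h1 := hv (dual ρ g⁻¹ f) (hA g⁻¹ f hf)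
      rw [dual_apply, inv_inv] at h1
      exact h1) with hP | hP
    · right
      apply dual_top h
      intro v hv
      have h1 : v ∈ P := hv
      rw [hP, AddSubgroup.mem_bot] at h1
      exact h1
    · left
      rw [AddSubgroup.eq_bot_iff_forall]
      intro f hf
      ext v
      have h1 : v ∈ P := by rw [hP]; trivial
      exact h1 f hf

end dual

/-! ### Maschke -/

theorem maschke {K M : Type*} [Group K] [Finite K] [AddCommGroup M] (hK : Odd (Nat.card K))
    (h : ∀ m : M, m + m = 0) (τ : K →* AddMonoid.End M) (N : AddSubgroup M) (hN : ∀ k, ∀ n ∈ N, τ k n ∈ N) :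
    ∃ U : AddSubgroup M, (∀ k, ∀ u ∈ U, τ k u ∈ U) ∧ U ⊓ N = ⊥ ∧ U ⊔ N = ⊤ := by
  classical
  haveI := Fintype.ofFinite K
  obtain ⟨p, hp⟩ := exists_leftInv (N := N) (M := M) (fun n => Subtype.ext (h n)) h N.subtype
    N.subtype_injective
  have hp' : ∀ n (hn : n ∈ N), (p n : M) = n := fun n hn => congrArg Subtype.val (hp ⟨n, hn⟩)
  let P : M →+ M := ∑ k : K, ((τ k : M →+ M).comp (N.subtype.comp p)).comp (τ k⁻¹ : M →+ M)
  have hP : ∀ m, P m = ∑ k : K, τ k (p (τ k⁻¹ m)) := by
    intro m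
    rw [show P m = (∑ k : K, ((τ k : M →+ M).comp (N.subtype.comp p)).comp (τ k⁻¹ : M →+ M)) m from rfl,
      AddMonoidHom.finsetSum_apply]
    rfl
  have hPN : ∀ m, P m ∈ N := by
    intro m
    rw [hP]
    exact N.sum_mem fun k _ => hN k _ (p _).2
  have hinv : ∀ (k : K) (m : M), τ k (τ k⁻¹ m) = m := by
    intro k m
    have h1 : (τ k * τ k⁻¹) m = m := by rw [← map_mul, mul_inv_cancel, map_one]; rfl
    exact h1
  have hPid : ∀ n ∈ N, P n = n := by
    intro n hn
    rw [hP]
    have h1 : ∀ k : K, τ k (p (τ k⁻¹ n)) = n := by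
      intro k
      rw [hp' _ (hN k⁻¹ n hn), hinv]
    simp only [h1]
    rw [Finset.sum_const, Finset.card_univ, ← Nat.card_eq_fintype_card]
    obtain ⟨c, hc⟩ := hK
    rw [hc, add_smul, one_smul, mul_comm, mul_smul, two_smul, h, smul_zero, zero_add]
  have hPc : ∀ (l : K) (m : M), P (τ l m) = τ l (P m) := by
    intro l m
    rw [hP, hP, map_sum]
    rw [← Equiv.sum_comp (Equiv.mulLeft l) (fun k => τ k (p (τ k⁻¹ (τ l m))))]
    apply Finset.sum_congr rfl
    intro k _
    show τ (l * k) (p (τ (l * k)⁻¹ (τ l m))) = τ l (τ k (p (τ k⁻¹ m)))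
    have h1 : τ (l * k)⁻¹ (τ l m) = τ k⁻¹ m := by
      have h2 : (τ (l * k)⁻¹ * τ l) m = τ k⁻¹ m := by
        rw [← map_mul]
        congr 2
        group
      exact h2
    rw [h1, map_mul]; rfl
  refine ⟨P.ker, ?_, ?_, ?_⟩
  · intro k u hu
    rw [AddMonoidHom.mem_ker] at hu ⊢
    rw [hPc, hu, map_zero]
  · rw [AddSubgroup.eq_bot_iff_forall]
    rintro x ⟨hx1, hx2⟩
    have h1 : P x = 0 := hx1
    rw [hPid x hx2] at h1
    exact h1
  · rw [eq_top_iff]
    intro m _
    have h1 : m = (m - P m) + P m := by abel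
    rw [h1]
    refine AddSubgroup.add_mem_sup ?_ (hPN m)
    rw [AddMonoidHom.mem_ker, map_sub, hPid _ (hPN m), sub_self]

/-! ### fixed points -/

section fix

variable {X : Type*} [Group X] {S : Subgroup X}

/-- the fixed points of `S` -/
def fx (S : Subgroup X) {V : Type*} [AddCommGroup V] (ρ : X →* AddMonoid.End V) : AddSubgroup V where
  carrier := {v | ∀ s ∈ S, ρ s v = v}
  zero_mem' := fun s _ => map_zero _
  add_mem' := by
    intro a b ha hb s hs
    rw [map_add, ha s hs, hb s hs]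
  neg_mem' := by
    intro a ha s hs
    rw [map_neg, ha s hs]

theorem mem_fx {V : Type*} [AddCommGroup V] {ρ : X →* AddMonoid.End V} {v : V} :
    v ∈ fx S ρ ↔ ∀ s ∈ S, ρ s v = v := Iff.rfl

theorem card_fix {R L W : Type*} [AddCommGroup R] [AddCommGroup L] [AddCommGroup W]
    (ρR : X →* AddMonoid.End R) (ρL : X →* AddMonoid.End L) (ρW : X →* AddMonoid.End W)
    (i : W →+ R) (π : R →+ L) (hi : Function.Injective i)
    (hex : ∀ r : R, π r = 0 ↔ ∃ y : W, i y = r)
    (hig : ∀ g y, ρR g (i y) = i (ρW g y)) (hπg : ∀ g r, π (ρR g r) = ρL g (π r))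
    (hl : ∀ l : L, (∀ s ∈ S, ρL s l = l) → ∃ r : R, π r = l ∧ ∀ s ∈ S, ρR s r = r) :
    Nat.card (fx S ρR) = Nat.card (fx S ρL) * Nat.card (fx S ρW) := by
  choose! σ hσ1 hσ2 using hl
  rw [← Nat.card_prod]
  symm
  refine Nat.card_congr (Equiv.ofBijective
    (fun x : fx S ρL × fx S ρW => (⟨σ x.1 + i x.2, ?_⟩ : fx S ρR)) ⟨?_, ?_⟩)
  · intro s hs
    rw [map_add, hσ2 _ x.1.2 s hs, hig, x.2.2 s hs]
  · rintro ⟨l, y⟩ ⟨l', y'⟩ hxy
    have h1 : σ l + i y = σ l' + i y' := congrArg Subtype.val hxy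
    have h2 := congrArg π h1
    rw [map_add, map_add, hσ1 _ l.2, hσ1 _ l'.2, (hex _).mpr ⟨_, rfl⟩, (hex _).mpr ⟨_, rfl⟩, add_zero,
      add_zero] at h2
    have h3 : l = l' := Subtype.ext h2
    subst h3
    have h4 : (y : W) = y' := hi (add_left_cancel h1)
    rw [Subtype.ext h4]
  · rintro ⟨r, hr⟩
    have h1 : ∀ s ∈ S, ρL s (π r) = π r := by
      intro s hs
      rw [← hπg, hr s hs]
    have h2 : π (r - σ (π r)) = 0 := by rw [map_sub, hσ1 _ h1, sub_self]
    obtain ⟨y, hy⟩ := (hex _).mp h2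
    refine ⟨⟨⟨π r, h1⟩, ⟨y, ?_⟩⟩, ?_⟩
    · intro s hs
      apply hi
      rw [← hig, hy, map_sub, hr s hs, hσ2 _ h1 s hs]
    · apply Subtype.ext
      show σ (π r) + i y = r
      rw [hy]; abel

end fix

section main

variable {X : Type*} [Group X] [Finite X] {F : Type} [Field F] [Fintype F] {θ : F ≃+* F} {S E K : Subgroup X}
  {w s0 : X} {a b κ : X → F}

theorem odd_K (D : SzD θ S E K w s0 a b κ) : Odd (Nat.card K) := by
  classical
  haveI := D.char
  have h1 : 2 ∣ Fintype.card F := (CharP.cast_eq_zero_iff F 2 _).mp (by simp)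
  have h2 : Nat.card K = Nat.card {x : F // x ≠ 0} := by
    refine Nat.card_congr (Equiv.ofBijective (fun k : K => (⟨κ k, D.κ_ne k k.2⟩ : {x : F // x ≠ 0})) ⟨?_, ?_⟩)
    · intro k l hkl
      have h3 : κ (k : X) = κ (l : X) := congrArg Subtype.val hkl
      have h4 := D.κ_mul ((k : X) * (l : X)⁻¹) (K.mul_mem k.2 (K.inv_mem l.2)) l l.2
      rw [inv_mul_cancel_right, h3] at h4
      have h5 : κ ((k : X) * (l : X)⁻¹) = 1 := by
        have := D.κ_ne l l.2
        field_simp at h4
        exact h4.symm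
      have h6 := D.κ_one _ (K.mul_mem k.2 (K.inv_mem l.2)) h5
      exact Subtype.ext (mul_inv_eq_one.mp h6)
    · rintro ⟨x, hx⟩
      obtain ⟨k, hk, hkx⟩ := D.κ_surj x hx
      exact ⟨⟨k, hk⟩, Subtype.ext hkx⟩
  have h3 : Nat.card {x : F // x ≠ 0} = Fintype.card F - 1 := by
    have h4 : Nat.card {x : F // x ≠ 0} = ({0}ᶜ : Set F).ncard := rfl
    rw [h4, Set.ncard_compl, Set.ncard_singleton, Nat.card_eq_fintype_card]
  rw [h2, h3]
  have h4 := D.card
  obtain ⟨c, hc⟩ := h1
  rw [hc]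
  exact ⟨c - 1, by omega⟩

theorem kw (D : SzD θ S E K w s0 a b κ) {k : X} (hk : k ∈ K) : k * w = w * k⁻¹ := by
  have h1 := D.wK k hk
  rw [← h1]
  have h2 : w * (w * k * w) = (w * w) * (k * w) := by group
  rw [h2, D.ww, one_mul]

theorem fx_K (D : SzD θ S E K w s0 a b κ) {V : Type*} [AddCommGroup V] (ρ : X →* AddMonoid.End V) {k : X}
    (hk : k ∈ K) {v : V} (hv : v ∈ fx S ρ) : ρ k v ∈ fx S ρ := by
  intro s hs
  have h1 : k⁻¹ * s * k ∈ S := by
    have := D.KS k⁻¹ (K.inv_mem hk) s hs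
    rwa [inv_inv] at this
  have h3 : s * k = k * (k⁻¹ * s * k) := by group
  rw [← mul_apply, h3, mul_apply, hv _ h1]

theorem split (D : SzD θ S E K w s0 a b κ)
    (hfix : ∀ {R L W : Type v} [AddCommGroup R] [Finite R] [AddCommGroup L] [Finite L] [AddCommGroup W] [Finite W]
      (h2 : ∀ r : R, r + r = 0) (ρR : X →* AddMonoid.End R) (ρL : X →* AddMonoid.End L) (ρW : X →* AddMonoid.End W)
      (hf : Fpf2 ρR) (hL : Irr2 ρL) (hW : Irr2 ρW)
      (i : W →+ R) (π : R →+ L) (hi : Function.Injective i) (hπ : Function.Surjective π)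
      (hex : ∀ r : R, π r = 0 ↔ ∃ y : W, i y = r)
      (hig : ∀ g y, ρR g (i y) = i (ρW g y)) (hπg : ∀ g r, π (ρR g r) = ρL g (π r)),
      ∀ l : L, (∀ s ∈ S, ρL s l = l) → ∃ r : R, π r = l ∧ ∀ s ∈ S, ρR s r = r)
    (hcard : ∀ {V : Type v} [AddCommGroup V] [Finite V], (∀ v : V, v + v = 0) → ∀ (ρ : X →* AddMonoid.End V),
      Fpf2 ρ → Irr2 ρ → Nat.card {v : V // ∀ s ∈ S, ρ s v = v} = Fintype.card F)
    {R L W : Type v} [AddCommGroup R] [Finite R] [AddCommGroup L] [Finite L] [AddCommGroup W] [Finite W]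
    (h2 : ∀ r : R, r + r = 0) (ρR : X →* AddMonoid.End R) (ρL : X →* AddMonoid.End L) (ρW : X →* AddMonoid.End W)
    (hf : Fpf2 ρR) (hL : Irr2 ρL) (hW : Irr2 ρW)
    (i : W →+ R) (π : R →+ L) (hi : Function.Injective i) (hπ : Function.Surjective π)
    (hex : ∀ r : R, π r = 0 ↔ ∃ y : W, i y = r)
    (hig : ∀ g y, ρR g (i y) = i (ρW g y)) (hπg : ∀ g r, π (ρR g r) = ρL g (π r)) :
    ∃ C : AddSubgroup R, (∀ g, ∀ r ∈ C, ρR g r ∈ C) ∧ C ⊓ i.range = ⊥ ∧ C ⊔ i.range = ⊤ := by
  classical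
  have hL2 : ∀ l : L, l + l = 0 := by
    intro l
    obtain ⟨r, rfl⟩ := hπ l
    rw [← map_add, h2, map_zero]
  have hW2 : ∀ y : W, y + y = 0 := by
    intro y
    apply hi
    rw [map_add, h2, map_zero]
  have hneg : ∀ r : R, -r = r := by
    intro r
    exact neg_eq_of_add_eq_zero_left (h2 r)
  have hfW : Fpf2 ρW := by
    intro g hg hg1 y hy
    apply hi
    rw [map_zero]
    apply hf g hg hg1
    rw [hig, hy]
  have hfL : Fpf2 ρL := by
    intro g hg hg1 l hl
    obtain ⟨r, rfl⟩ := hπ l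
    have hgn : g ^ orderOf g = 1 := pow_orderOf_eq_one g
    have h3 : ∑ j ∈ Finset.range (orderOf g), ρR (g ^ j) r = 0 := by
      apply hf g hg hg1
      rw [map_sum]
      have h3 : ∀ j, ρR g (ρR (g ^ j) r) = ρR (g ^ (j + 1)) r := by
        intro j; rw [pow_succ', map_mul]; rfl
      simp_rw [h3]
      have h4 := Finset.sum_range_succ (fun j => ρR (g ^ j) r) (orderOf g)
      have h5 := Finset.sum_range_succ' (fun j => ρR (g ^ j) r) (orderOf g)
      rw [h4] at h5
      simp only [pow_zero, hgn] at h5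
      exact (add_right_cancel h5).symm
    have h4 := congrArg π h3
    rw [map_zero, map_sum] at h4
    have h5 : ∀ j : ℕ, π (ρR (g ^ j) r) = π r := by
      intro j
      rw [hπg]
      induction j with
      | zero => rw [pow_zero, map_one]; rfl
      | succ j ih =>
        have h6 : ρL (g ^ (j + 1)) (π r) = ρL (g ^ j) (ρL g (π r)) := by rw [pow_succ, map_mul]; rfl
        rw [h6, hl, ih]
    simp_rw [h5] at h4
    rw [Finset.sum_const, Finset.card_range] at h4
    obtain ⟨c, hc⟩ := hg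
    rw [hc, add_smul, one_smul, mul_comm, mul_smul, two_smul, hL2, smul_zero, zero_add] at h4
    exact h4
  have hq : 8 ≤ Fintype.card F := D.card
  obtain ⟨q, hqdef⟩ : ∃ q, q = Fintype.card F := ⟨_, rfl⟩
  have cL : Nat.card (fx S ρL) = q := (hcard hL2 ρL hfL hL).trans hqdef.symm
  have cW : Nat.card (fx S ρW) = q := (hcard hW2 ρW hfW hW).trans hqdef.symm
  rw [← hqdef] at hq
  have cR : Nat.card (fx S ρR) = q * q := by
    rw [card_fix ρR ρL ρW i π hi hex hig hπg
      (hfix h2 ρR ρL ρW hf hL hW i π hi hπ hex hig hπg), cL, cW]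
  -- the dual extension
  have cD : Nat.card (fx S (dual ρR)) = q * q := by
    obtain ⟨p, hp⟩ := exists_leftInv hW2 h2 i hi
    let Di : (R →+ ZMod 2) →+ (W →+ ZMod 2) :=
      { toFun := fun f => f.comp i
        map_zero' := rfl
        map_add' := fun f g => rfl }
    let Dπ : (L →+ ZMod 2) →+ (R →+ ZMod 2) :=
      { toFun := fun f => f.comp π
        map_zero' := rfl
        map_add' := fun f g => rfl }
    have hDπ : Function.Injective Dπ := by
      intro f g hfg
      ext l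
      obtain ⟨r, rfl⟩ := hπ l
      exact DFunLike.congr_fun hfg r
    have hDi : Function.Surjective Di := by
      intro f
      refine ⟨f.comp p, ?_⟩
      ext y
      show f (p (i y)) = f y
      rw [hp]
    have hDex : ∀ f : R →+ ZMod 2, Di f = 0 ↔ ∃ g : L →+ ZMod 2, Dπ g = f := by
      intro f
      constructor
      · intro hf0
        have hker : ∀ r, π r = 0 → f r = 0 := by
          intro r hr
          obtain ⟨y, rfl⟩ := (hex r).mp hr
          exact DFunLike.congr_fun hf0 y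
        choose σ hσ using hπ
        refine ⟨{ toFun := fun l => f (σ l), map_zero' := hker _ (hσ 0), map_add' := ?_ }, ?_⟩
        · intro l l'
          have h3 := hker (σ (l + l') - (σ l + σ l')) (by
            rw [map_sub, map_add, hσ, hσ, hσ, sub_self])
          rw [map_sub, map_add, sub_eq_zero] at h3
          exact h3
        · ext r
          show f (σ (π r)) = f r
          have h3 := hker (σ (π r) - r) (by rw [map_sub, hσ, sub_self])
          rw [map_sub, sub_eq_zero] at h3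
          exact h3
      · rintro ⟨g, rfl⟩
        ext y
        show g (π (i y)) = 0
        rw [(hex _).mpr ⟨y, rfl⟩, map_zero]
    have hDig : ∀ (g : X) (f : L →+ ZMod 2), dual ρR g (Dπ f) = Dπ (dual ρL g f) := by
      intro g f
      ext r
      show f (π (ρR g⁻¹ r)) = f (ρL g⁻¹ (π r))
      rw [hπg]
    have hDπg : ∀ (g : X) (f : R →+ ZMod 2), Di (dual ρR g f) = dual ρW g (Di f) := by
      intro g f
      ext y
      show f (ρR g⁻¹ (i y)) = f (i (ρW g⁻¹ y))
      rw [hig]
    rw [card_fix (dual ρR) (dual ρW) (dual ρL) Dπ Di hDπ hDex hDig hDπg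
      (hfix dual_two (dual ρR) (dual ρW) (dual ρL) (fpf_dual hf) (irr_dual hW2 hW) (irr_dual hL2 hL)
        Dπ Di hDπ hDi hDex hDig hDπg)]
    have e1 : Nat.card (fx S (dual ρW)) = q :=
      (hcard dual_two (dual ρW) (fpf_dual hfW) (irr_dual hW2 hW)).trans hqdef.symm
    have e2 : Nat.card (fx S (dual ρL)) = q :=
      (hcard dual_two (dual ρL) (fpf_dual hfL) (irr_dual hL2 hL)).trans hqdef.symm
    rw [e1, e2]
  -- `[R,S]`
  let DD : AddSubgroup R := AddSubgroup.closure {x | ∃ s ∈ S, ∃ r, x = r + ρR s r}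
  have hDD : ∀ s ∈ S, ∀ r, r + ρR s r ∈ DD := fun s hs r => AddSubgroup.subset_closure ⟨s, hs, r, rfl⟩
  have hquot : q * q ≤ Nat.card (R ⧸ DD) := by
    have hQ2 : ∀ x : R ⧸ DD, x + x = 0 := by
      intro x
      obtain ⟨r, rfl⟩ := QuotientAddGroup.mk_surjective x
      rw [← QuotientAddGroup.mk_add, h2]; rfl
    rw [← card_dual hQ2, ← cD]
    have hkill : ∀ f ∈ fx S (dual ρR), DD ≤ AddMonoidHom.ker f := by
      intro f hfS
      rw [AddSubgroup.closure_le]
      rintro _ ⟨s, hs, r, rfl⟩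
      show f (r + ρR s r) = 0
      have h3 := DFunLike.congr_fun (hfS s⁻¹ (S.inv_mem hs)) r
      rw [dual_apply, inv_inv] at h3
      rw [map_add, h3]
      exact CharTwo.add_self_eq_zero _
    refine Nat.card_le_card_of_injective
      (fun f : fx S (dual ρR) => QuotientAddGroup.lift DD (f : R →+ ZMod 2) (hkill f f.2)) ?_
    intro f g hfg
    apply Subtype.ext
    ext r
    exact DFunLike.congr_fun hfg (r : R ⧸ DD)
  -- the complement in the fixed points
  let τ : K →* AddMonoid.End (fx S ρR) :=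
    { toFun := fun k =>
        { toFun := fun r => ⟨ρR k r, fx_K D ρR k.2 r.2⟩
          map_zero' := Subtype.ext (map_zero _)
          map_add' := fun r r' => Subtype.ext (map_add _ _ _) }
      map_one' := by
        ext r
        show ρR ((1 : K) : X) (r : R) = r
        rw [Subgroup.coe_one, map_one]; rfl
      map_mul' := by
        intro k l
        ext r
        show ρR ((k * l : K) : X) (r : R) = ρR k (ρR l r)
        rw [Subgroup.coe_mul, map_mul]; rfl }
  have hτ : ∀ (k : K) (r : fx S ρR), ((τ k r : fx S ρR) : R) = ρR k r := fun k r => rfl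
  let N : AddSubgroup (fx S ρR) := i.range.comap (fx S ρR).subtype
  have hNmem : ∀ r : fx S ρR, r ∈ N ↔ ∃ y, i y = r := fun r => Iff.rfl
  obtain ⟨U, hU1, hU2, hU3⟩ := maschke (K := K) (M := fx S ρR) (odd_K D) (fun m => Subtype.ext (h2 m)) τ N (by
    rintro k n ⟨y, hy⟩
    refine ⟨ρW k y, ?_⟩
    show i (ρW k y) = ρR k n
    rw [← hig, hy]; rfl)
  have cN : Nat.card N = q := by
    rw [← cW]
    symm
    refine Nat.card_congr (Equiv.ofBijective (fun y : fx S ρW =>
      (⟨⟨i y, fun s hs => by rw [hig, y.2 s hs]⟩, ⟨y, rfl⟩⟩ : N)) ⟨?_, ?_⟩)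
    · intro y y' hyy
      exact Subtype.ext (hi (congrArg (fun z : N => ((z : fx S ρR) : R)) hyy))
    · rintro ⟨⟨r, hr⟩, ⟨y, hy⟩⟩
      have hy' : i y = r := hy
      refine ⟨⟨y, fun s hs => ?_⟩, ?_⟩
      · apply hi
        rw [← hig, hy', hr s hs]
      · apply Subtype.ext
        apply Subtype.ext
        exact hy'
  have cU : Nat.card U ≤ q := by
    have h3 : Function.Injective (fun x : U × N => (x.1 : fx S ρR) + x.2) := by
      rintro ⟨u, n⟩ ⟨u', n'⟩ hxy
      have h4 : (u : fx S ρR) + n = u' + n' := hxy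
      have h5 : (u : fx S ρR) - u' = n' - n := by
        rw [sub_eq_sub_iff_add_eq_add, h4, add_comm]
      have h6 : (u : fx S ρR) - u' ∈ U ⊓ N := ⟨U.sub_mem u.2 u'.2, by rw [h5]; exact N.sub_mem n'.2 n.2⟩
      rw [hU2, AddSubgroup.mem_bot, sub_eq_zero] at h6
      have h7 : u = u' := Subtype.ext h6
      subst h7
      have h8 : (n : fx S ρR) = n' := add_left_cancel h4
      rw [Subtype.ext h8]
    have h4 := Nat.card_le_card_of_injective _ h3
    rw [Nat.card_prod, cN, cR] at h4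
    exact Nat.le_of_mul_le_mul_right h4 (by omega)
  have hUne : ∃ u ∈ U, u ≠ 0 := by
    by_contra hcon
    push Not at hcon
    have h3 : N = ⊤ := by
      rw [← hU3, eq_comm, sup_eq_right]
      intro u hu
      rw [hcon u hu]
      exact N.zero_mem
    have h4 : Nat.card N = Nat.card (fx S ρR) := by
      rw [h3]
      exact Nat.card_congr AddSubgroup.topEquiv.toEquiv
    rw [cN, cR] at h4
    nlinarith
  -- the submodule generated by `U`
  let C : AddSubgroup R := AddSubgroup.closure {x | ∃ g : X, ∃ u ∈ U, x = ρR g (u : fx S ρR)}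
  have hCinv : ∀ g, ∀ r ∈ C, ρR g r ∈ C := by
    intro g
    have h3 : C ≤ C.comap (ρR g : R →+ R) := by
      rw [AddSubgroup.closure_le]
      rintro _ ⟨h, u, hu, rfl⟩
      show ρR g (ρR h u) ∈ C
      rw [← mul_apply]
      exact AddSubgroup.subset_closure ⟨g * h, u, hu, rfl⟩
    exact fun r hr => h3 hr
  have hCL : C ⊔ i.range = ⊤ := by
    have h3 : C.map π = ⊤ := by
      rcases hL.2 (C.map π) (by
        rintro g _ ⟨r, hr, rfl⟩
        exact ⟨ρR g r, hCinv g r hr, hπg g r⟩) with h4 | h4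
      · exfalso
        obtain ⟨u, hu, hu0⟩ := hUne
        have h5 : (u : R) ∈ C := AddSubgroup.subset_closure ⟨1, u, hu, by rw [map_one]; rfl⟩
        have h6 : π u ∈ C.map π := ⟨u, h5, rfl⟩
        rw [h4, AddSubgroup.mem_bot, hex] at h6
        have h7 : u ∈ U ⊓ N := ⟨hu, h6⟩
        rw [hU2, AddSubgroup.mem_bot] at h7
        exact hu0 h7
      · exact h4
    rw [eq_top_iff]
    intro r _
    have h4 : π r ∈ C.map π := by rw [h3]; trivial
    obtain ⟨c, hc, hcr⟩ := h4
    have h5 : π (r - c) = 0 := by rw [map_sub, hcr, sub_self]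
    obtain ⟨y, hy⟩ := (hex _).mp h5
    have h6 : r = c + i y := by rw [hy]; abel
    rw [h6]
    exact AddSubgroup.add_mem_sup hc ⟨y, rfl⟩
  rcases hW.2 (C.comap i) (by
    intro g y hy
    show i (ρW g y) ∈ C
    rw [← hig]
    exact hCinv g _ hy) with h3 | h3
  · refine ⟨C, hCinv, ?_, hCL⟩
    rw [AddSubgroup.eq_bot_iff_forall]
    rintro _ ⟨hx1, ⟨y, rfl⟩⟩
    have h4 : y ∈ C.comap i := hx1
    rw [h3, AddSubgroup.mem_bot] at h4
    rw [h4, map_zero]
  · exfalso
    have hle : i.range ≤ C := by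
      rintro _ ⟨y, rfl⟩
      have h4 : y ∈ C.comap i := by rw [h3]; trivial
      exact h4
    have hCtop : C = ⊤ := by
      rw [← hCL, eq_comm, sup_eq_left]
      exact hle
    let Φ : U →+ R ⧸ DD :=
      { toFun := fun u => ((ρR w ((u : fx S ρR) : R) : R) : R ⧸ DD)
        map_zero' := by
          show ((ρR w (0 : R) : R) : R ⧸ DD) = 0
          rw [map_zero]; rfl
        map_add' := by
          intro u u'
          show ((ρR w ((u : fx S ρR) + (u' : fx S ρR) : R) : R) : R ⧸ DD) = _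
          rw [map_add]; rfl }
    have hS : ∀ s ∈ S, ∀ z : R, ((ρR s z : R) : R ⧸ DD) = (z : R ⧸ DD) := by
      intro s hs z
      rw [QuotientAddGroup.eq, hneg, add_comm]
      exact hDD s hs z
    have hCle : C ≤ Φ.range.comap (QuotientAddGroup.mk' DD) := by
      rw [AddSubgroup.closure_le]
      rintro _ ⟨g, u, hu, rfl⟩
      show ((ρR g u : R) : R ⧸ DD) ∈ Φ.range
      have hu' : ∀ s ∈ S, ρR s (u : R) = u := u.2
      rcases D.bruhat g with ⟨s, hs, k, hk, rfl⟩ | ⟨s, hs, k, hk, r, hr, rfl⟩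
      · rw [mul_apply, hS s hs]
        have h4 : ∀ s ∈ S, ρR s (ρR k (u : R)) = ρR k u := fx_K D ρR hk u.2
        have h5 := D.rel h2 ρR hf (ρR k u) (h4 s0 D.s0S)
        have h6 : ρR k (u : R) ∈ DD := by
          rw [← h5]
          have h7 := hDD s0 D.s0S (ρR w (ρR k u) + ρR (s0 * s0) (ρR w (ρR k u)))
          have h8 : ρR s0 (ρR (s0 * s0) (ρR w (ρR k u))) = ρR (s0 * s0 * s0) (ρR w (ρR k u)) := by
            rw [← mul_apply, mul_assoc]
          rw [map_add, h8] at h7
          have h9 : ρR w (ρR k (u : R)) + ρR (s0 * s0) (ρR w (ρR k u)) +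
              (ρR s0 (ρR w (ρR k u)) + ρR (s0 * s0 * s0) (ρR w (ρR k u))) =
              ρR w (ρR k u) + ρR s0 (ρR w (ρR k u)) + ρR (s0 * s0) (ρR w (ρR k u)) +
                ρR (s0 * s0 * s0) (ρR w (ρR k u)) := by abel
          rw [h9] at h7
          exact h7
        rw [(QuotientAddGroup.eq_zero_iff _).mpr h6]
        exact Φ.range.zero_mem
      · rw [mul_apply, hu' r hr, mul_assoc, mul_apply, hS s hs, kw D hk, mul_apply]
        exact ⟨⟨τ ⟨k⁻¹, K.inv_mem hk⟩ u, hU1 _ u hu⟩, rfl⟩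
    have hsurj : Function.Surjective Φ := by
      intro x
      obtain ⟨r, rfl⟩ := QuotientAddGroup.mk_surjective x
      have h4 : r ∈ C := by rw [hCtop]; trivial
      exact hCle h4
    have h5 := Nat.card_le_card_of_surjective Φ hsurj
    nlinarith

end main

end Cfsg.Agent.CIT.MtP9
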