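import Cfsg.Agent.CIT.PPCop
import Cfsg.Agent.H31.PP.Defs
import Cfsg.Agent.H4.BaerSuzuki

set_option autoImplicit false

/-!
balance and Baer-Suzuki (helper57, for helper31)
-/

namespace Cfsg.Agent.CIT.PP

open Subgroup Cfsg Cfsg.Agent.H31.PP
open scoped Pointwise

universe u
variable {G : Type u} [Group G] [Finite G] {p : ℕ} [Fact p.Prime]

omit [Finite G] [Fact p.Prime] in
theorem OO_le' (V : Subgroup G) : OO p V ≤ V := map_subtype_le _

omit [Finite G] [Fact p.Prime] in
theorem OO_conj' {V : Subgroup G} {v x : G} (hv : v ∈ V) (hx : x ∈ OO p V) : v * x * v⁻¹ ∈ OO p V := by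
  obtain ⟨y, hy, rfl⟩ := hx
  exact ⟨⟨v, hv⟩ * y * ⟨v, hv⟩⁻¹, (Solv.pPrimeCore_normal p).conj_mem y hy ⟨v, hv⟩, rfl⟩

omit [Fact p.Prime] in
theorem OO_coprime' (V : Subgroup G) : (Nat.card (OO p V)).Coprime p := by
  unfold OO
  rw [Subgroup.card_map_of_injective V.subtype_injective]
  exact Solv.pPrimeCore_card_coprime p

theorem balance {a b : G} (hb : IsPSolvable p (centralizer ({b} : Set G))) (hab : a * b = b * a)
    (hap : ∃ k : ℕ, a ^ p ^ k = 1) {e : G} (he : e ∈ th p a) (heb : e * b = b * e) : e ∈ th p b := by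
  classical
  set V := centralizer ({b} : Set G) with hV
  set N := pPrimeCore p V with hN
  set π := QuotientGroup.mk' N with hπ
  have haV : a ∈ V := mem_centralizer_singleton_iff.2 hab
  have heV : e ∈ V := mem_centralizer_singleton_iff.2 heb
  set aX : V := ⟨a, haV⟩ with haX
  set eX : V := ⟨e, heV⟩ with heX
  set U := pCore p (V ⧸ N) with hU
  have hUp : IsPGroup p U := Solv.pCore_isPGroup p
  have hae : e * a = a * e := mem_centralizer_singleton_iff.1 (OO_le' _ he)
  -- the image of `e` centralises `U`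
  have hAp : IsPGroup p (zpowers (π aX)) := by
    obtain ⟨k, hk⟩ := hap
    rw [IsPGroup.iff_card]
    have h1 : orderOf (π aX) ∣ p ^ k := by
      apply orderOf_dvd_of_pow_eq_one
      rw [← map_pow]
      have : aX ^ p ^ k = 1 := Subtype.ext hk
      rw [this, map_one]
    rw [Nat.card_zpowers]
    obtain ⟨i, -, hi⟩ := (Nat.dvd_prime_pow Fact.out).1 h1
    exact ⟨i, hi⟩
  have hecop : (orderOf (π eX)).Coprime p := by
    have h1 : orderOf (π eX) ∣ orderOf eX := orderOf_map_dvd π eX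
    have h2 : orderOf eX = orderOf e := by
      rw [← orderOf_injective V.subtype V.subtype_injective eX]; rfl
    have h3 : orderOf e ∣ Nat.card (th p a) := by
      rw [← Subgroup.orderOf_mk e he]
      exact orderOf_dvd_natCard _
    exact Nat.Coprime.coprime_dvd_left (h1.trans (h2 ▸ h3)) (OO_coprime' _)
  have hcomm : π eX ∈ centralizer ((zpowers (π aX) : Subgroup (V ⧸ N)) : Set (V ⧸ N)) := by
    rw [mem_centralizer_iff]
    rintro y hy
    obtain ⟨n, rfl⟩ := mem_zpowers_iff.1 hy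
    have h1 : Commute (π aX) (π eX) := by
      show π aX * π eX = π eX * π aX
      rw [← map_mul, ← map_mul]
      congr 1
      exact Subtype.ext hae.symm
    exact (h1.zpow_left n)
  have hUn : ∀ g : V ⧸ N, g ∈ normalizer (U : Set (V ⧸ N)) := by
    intro g
    have hN : U.Normal := Solv.pCore_normal p
    rw [mem_normalizer_iff]
    intro y
    refine ⟨fun hh => hN.conj_mem y hh g, fun hh => ?_⟩
    have h1 := hN.conj_mem _ hh g⁻¹
    have e1 : g⁻¹ * (g * y * g⁻¹) * g⁻¹⁻¹ = y := by group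
    rwa [e1] at h1
  have hcen : π eX ∈ centralizer ((U : Subgroup (V ⧸ N)) : Set (V ⧸ N)) := by
    refine H49.thompson_AB hAp hecop hcomm U hUp (fun g _ => hUn g) (hUn _) ?_
    rw [mem_centralizer_iff]
    intro u hu
    obtain ⟨hu1, hu2⟩ := Subgroup.mem_inf.1 hu
    obtain ⟨q0, rfl⟩ := QuotientGroup.mk'_surjective N u
    -- lift to an element commuting with `a`
    have h1 : q0 * aX * q0⁻¹ * aX⁻¹ ∈ N := by
      have h2 := mem_centralizer_iff.1 hu2 (π aX) (mem_zpowers _)
      have h3 : π (q0 * aX * q0⁻¹ * aX⁻¹) = 1 := by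
        have h4 : π aX * π q0 = π q0 * π aX := h2
        rw [map_mul, map_mul, map_mul, map_inv, map_inv, ← h4]; group
      rwa [← MonoidHom.mem_ker, QuotientGroup.ker_mk'] at h3
    obtain ⟨n, hn, hnq⟩ := exists_fix (p := p) (N := N) (z := aX) (x := q0) (Solv.pPrimeCore_card_coprime p)
      (by obtain ⟨k, hk⟩ := hap; exact ⟨k, Subtype.ext hk⟩) (fun m hm => (Solv.pPrimeCore_normal p).conj_mem m hm aX) h1
    set q := n * q0 with hq
    have hqπ : π q = π q0 := by
      rw [hq, map_mul]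
      have : π n = 1 := by
        rw [← MonoidHom.mem_ker, QuotientGroup.ker_mk']; exact hn
      rw [this, one_mul]
    have hqa : (q : G) ∈ centralizer ({a} : Set G) := mem_centralizer_singleton_iff.2 (congrArg Subtype.val hnq)
    have h5 : (q : G) * e * (q : G)⁻¹ ∈ th p a := OO_conj' hqa he
    have h6 : (q : G) * e * (q : G)⁻¹ * e⁻¹ ∈ th p a := mul_mem h5 (inv_mem he)
    set c : V := q * eX * q⁻¹ * eX⁻¹ with hc
    have hcG : (c : G) = (q : G) * e * (q : G)⁻¹ * e⁻¹ := rfl
    have hc1 : (orderOf (π c)).Coprime p := by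
      have h1 : orderOf (π c) ∣ orderOf c := orderOf_map_dvd π c
      have h2 : orderOf c = orderOf (c : G) := by
        rw [← orderOf_injective V.subtype V.subtype_injective c]; rfl
      have h3 : orderOf (c : G) ∣ Nat.card (th p a) := by
        have h7 : (c : G) ∈ th p a := by rw [hcG]; exact h6
        rw [← Subgroup.orderOf_mk (c : G) h7]
        exact orderOf_dvd_natCard _
      exact Nat.Coprime.coprime_dvd_left (h1.trans (h2 ▸ h3)) (OO_coprime' _)
    have hc2 : π c ∈ U := by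
      have h8 : π c = π q * (π eX * (π q)⁻¹ * (π eX)⁻¹) := by
        rw [hc, map_mul, map_mul, map_mul, map_inv, map_inv]; group
      rw [h8, hqπ]
      have hUN : U.Normal := Solv.pCore_normal p
      exact mul_mem hu1 (hUN.conj_mem _ (inv_mem hu1) _)
    have hc3 : π c = 1 := by
      obtain ⟨k, hk⟩ := hUp ⟨π c, hc2⟩
      have h9 : orderOf (π c) ∣ p ^ k := orderOf_dvd_of_pow_eq_one (congrArg Subtype.val hk)
      have h10 : orderOf (π c) ∣ 1 := by
        rw [← (Nat.Coprime.pow_right k hc1).gcd_eq_one]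
        exact Nat.dvd_gcd dvd_rfl h9
      exact orderOf_eq_one_iff.1 (Nat.dvd_one.1 h10)
    have h11 : π q * π eX * (π q)⁻¹ * (π eX)⁻¹ = 1 := by
      rw [← map_inv, ← map_inv, ← map_mul, ← map_mul, ← map_mul]; exact hc3
    rw [hqπ] at h11
    have h12 := mul_inv_eq_one.1 h11
    rw [mul_inv_eq_iff_eq_mul] at h12
    exact h12
  -- Hall-Higman
  have hsolv : IsPSolvable p (V ⧸ N) := H76.isPSolvable_quotient N hb
  have h13 := H76.centralizer_pCore_le hsolv (Solv.pPrimeCore_quotient_pPrimeCore p) hcen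
  have h14 : π eX = 1 := by
    obtain ⟨k, hk⟩ := hUp ⟨π eX, h13⟩
    have h9 : orderOf (π eX) ∣ p ^ k := orderOf_dvd_of_pow_eq_one (congrArg Subtype.val hk)
    have h10 : orderOf (π eX) ∣ 1 := by
      rw [← (Nat.Coprime.pow_right k hecop).gcd_eq_one]
      exact Nat.dvd_gcd dvd_rfl h9
    exact orderOf_eq_one_iff.1 (Nat.dvd_one.1 h10)
  rw [← MonoidHom.mem_ker, QuotientGroup.ker_mk'] at h14
  exact ⟨eX, h14, rfl⟩

theorem mem_OP_of_BS {V : Subgroup G} {x : G} (hx : x ∈ V)
    (h : ∀ v ∈ V, ∀ y ∈ closure ({x, v * x * v⁻¹} : Set G), ∃ k : ℕ, y ^ p ^ k ∈ OO p V) : x ∈ OP p V := by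
  classical
  set N := pPrimeCore p V with hN
  set π := QuotientGroup.mk' N with hπ
  set xX : V := ⟨x, hx⟩ with hxX
  have key : ∀ g : V ⧸ N, IsPGroup p ↥(zpowers (π xX) ⊔ (zpowers (π xX)).map (MulAut.conj g).toMonoidHom) := by
    intro g
    obtain ⟨v, rfl⟩ := QuotientGroup.mk'_surjective N g
    have h1 : zpowers (π xX) ⊔ (zpowers (π xX)).map (MulAut.conj (π v)).toMonoidHom =
        (closure ({xX, v * xX * v⁻¹} : Set V)).map π := by
      rw [MonoidHom.map_closure, Set.image_pair, Set.insert_eq, Subgroup.closure_union, ← zpowers_eq_closure,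
        ← zpowers_eq_closure, MonoidHom.map_zpowers]
      rfl
    rw [h1]
    rintro ⟨y, hy⟩
    obtain ⟨z, hz, rfl⟩ := hy
    have h2 : (z : G) ∈ closure ({x, (v : G) * x * (v : G)⁻¹} : Set G) := by
      have h3 : (closure ({xX, v * xX * v⁻¹} : Set V)).map V.subtype = closure ({x, (v : G) * x * (v : G)⁻¹} : Set G) := by
        rw [MonoidHom.map_closure, Set.image_pair]
        rfl
      rw [← h3]
      exact ⟨z, hz, rfl⟩
    obtain ⟨k, hk⟩ := h v v.2 z h2
    refine ⟨k, Subtype.ext ?_⟩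
    obtain ⟨w, hw, hwz⟩ := hk
    have h4 : w = z ^ p ^ k := Subtype.ext hwz
    have h5 : π (z ^ p ^ k) = 1 := by
      rw [← MonoidHom.mem_ker, QuotientGroup.ker_mk', ← h4]; exact hw
    rw [map_pow] at h5
    exact h5
  obtain ⟨M, hM1, hM2, hM3⟩ := Cfsg.Agent.H4.baer_suzuki (zpowers (π xX)) key
  have h6 : π xX ∈ pCore p (V ⧸ N) := Solv.le_pCore hM1 hM2 (hM3 (mem_zpowers _))
  exact ⟨xX, h6, rfl⟩

end Cfsg.Agent.CIT.PP
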