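import Cfsg.Agent.H62.SL23Rec
import Cfsg.Agent.S3378

set_option autoImplicit false

/-!
Groups with a unique involution `z` and `G/⟨z⟩ = A₄` or `A₅` (helper57, for S4021).
-/

namespace Cfsg.Agent.CIT.S4021AB

open Subgroup

section common

variable {G A : Type*} [Group G] [Finite G] [Group A] {z : G}

omit [Finite G] in
theorem zz (hz2 : orderOf z = 2) : z * z = 1 := by
  have := pow_orderOf_eq_one z
  rwa [hz2, pow_two] at this

omit [Finite G] in
theorem zc (hz2 : orderOf z = 2) (hu : ∀ u : G, orderOf u = 2 → u = z) (g : G) : g * z = z * g := by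
  have h1 : orderOf (g * z * g⁻¹) = 2 := by
    rw [← hz2]
    exact orderOf_injective (MulAut.conj g).toMonoidHom (MulAut.conj g).injective z
  exact mul_inv_eq_iff_eq_mul.1 (hu _ h1)

omit [Finite G] in
theorem mem_z (hz2 : orderOf z = 2) {y : G} (hy : y ∈ zpowers z) : y = 1 ∨ y = z := by
  obtain ⟨k, rfl⟩ := mem_zpowers_iff.1 hy
  rcases Int.even_or_odd' k with ⟨m, rfl | rfl⟩
  · left
    rw [_root_.zpow_mul, zpow_ofNat, pow_two, zz hz2, _root_.one_zpow]
  · right
    rw [_root_.zpow_add, _root_.zpow_mul, zpow_ofNat, pow_two, zz hz2, _root_.one_zpow, one_mul, _root_.zpow_one]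

omit [Finite G] in
/-- squares -/
theorem sq_eq (hz2 : orderOf z = 2) (hu : ∀ u : G, orderOf u = 2 → u = z) (f : G →* A)
    (hf : f.ker = zpowers z) {g : G} (hg : f g ≠ 1) (hgg : f g * f g = 1) : g * g = z := by
  have h1 : g * g ∈ zpowers z := by
    rw [← hf, MonoidHom.mem_ker, map_mul, hgg]
  rcases mem_z hz2 h1 with h2 | h2
  · exfalso
    have h3 : orderOf g = 2 := orderOf_eq_prime (by rw [pow_two, h2]) (fun e => hg (by rw [e, map_one]))
    have h4 := hu g h3
    apply hg
    rw [h4, ← MonoidHom.mem_ker, hf]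
    exact mem_zpowers z
  · exact h2

omit [Finite G] in
/-- the quaternion relation -/
theorem quat_rel (hz2 : orderOf z = 2) (hu : ∀ u : G, orderOf u = 2 → u = z) {i j : G} (hi : i * i = z) (hj : j * j = z)
    (hij : (i * j) * (i * j) = z) : j * i * j⁻¹ = i⁻¹ := by
  have h1 : j⁻¹ = z * j := by
    rw [inv_eq_iff_mul_eq_one, ← mul_assoc, zc hz2 hu j, mul_assoc, hj, zz hz2]
  have h2 : i⁻¹ = z * i := by
    rw [inv_eq_iff_mul_eq_one, ← mul_assoc, zc hz2 hu i, mul_assoc, hi, zz hz2]
  have h3 : j * i * j = i := by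
    have e : i * (j * i * j) = i * i := by rw [hi, ← hij]; group
    exact mul_left_cancel e
  rw [h1, h2]
  calc j * i * (z * j) = j * (i * z) * j := by group
    _ = j * (z * i) * j := by rw [zc hz2 hu i]
    _ = (j * z) * i * j := by group
    _ = (z * j) * i * j := by rw [zc hz2 hu j]
    _ = z * (j * i * j) := by group
    _ = z * i := by rw [h3]

end common

theorem a4_elts : ∃ a b c : alternatingGroup (Fin 4), a ≠ 1 ∧ a * a = 1 ∧ b ≠ 1 ∧ b * b = 1 ∧ a * b ≠ 1 ∧
    (a * b) * (a * b) = 1 ∧ c ≠ 1 ∧ c * c * c = 1 ∧ c * a * c⁻¹ = b ∧ c * b * c⁻¹ = a * b := by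
  refine ⟨⟨Equiv.swap 0 1 * Equiv.swap 2 3, Equiv.Perm.mem_alternatingGroup.2 (by decide)⟩,
    ⟨Equiv.swap 0 2 * Equiv.swap 1 3, Equiv.Perm.mem_alternatingGroup.2 (by decide)⟩,
    ⟨Equiv.swap 1 2 * Equiv.swap 2 3, Equiv.Perm.mem_alternatingGroup.2 (by decide)⟩, ?_⟩
  decide +kernel

theorem A {G : Type*} [Group G] [Finite G] (z : G) (hz2 : orderOf z = 2) (hu : ∀ u : G, orderOf u = 2 → u = z)
    (Z : Subgroup G) [Z.Normal] (hZ : Z = Subgroup.zpowers z) (e : G ⧸ Z ≃* alternatingGroup (Fin 4)) :
    Nonempty (G ≃* Matrix.SpecialLinearGroup (Fin 2) (ZMod 3)) := by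
  classical
  let f : G →* alternatingGroup (Fin 4) := e.toMonoidHom.comp (QuotientGroup.mk' Z)
  have hfs : Function.Surjective f := e.surjective.comp (QuotientGroup.mk'_surjective Z)
  have hker : f.ker = zpowers z := by
    rw [← hZ]
    ext x
    rw [MonoidHom.mem_ker]
    change e (QuotientGroup.mk' Z x) = 1 ↔ _
    rw [map_eq_one_iff e e.injective, QuotientGroup.mk'_apply, QuotientGroup.eq_one_iff]
  have hfz : f z = 1 := by rw [← MonoidHom.mem_ker, hker]; exact mem_zpowers z
  obtain ⟨a, b, c, ha, haa, hb, hbb, hab, habab, hc, hccc, hca, hcb⟩ := a4_elts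
  obtain ⟨i, rfl⟩ := hfs a
  obtain ⟨y, rfl⟩ := hfs c
  -- an element of order three
  obtain ⟨x, hx3, hxf⟩ : ∃ x : G, x * x * x = 1 ∧ f x = f y := by
    have h1 : y * y * y ∈ zpowers z := by rw [← hker, MonoidHom.mem_ker, map_mul, map_mul, hccc]
    rcases mem_z hz2 h1 with h2 | h2
    · exact ⟨y, h2, rfl⟩
    · refine ⟨y * z, ?_, by rw [map_mul, hfz, mul_one]⟩
      calc y * z * (y * z) * (y * z) = y * (z * y) * (z * y) * z := by group
        _ = y * (y * z) * (y * z) * z := by rw [zc hz2 hu y]
        _ = y * y * (z * y) * (z * z) := by group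
        _ = y * y * (y * z) * 1 := by rw [zc hz2 hu y, zz hz2]
        _ = (y * y * y) * z := by group
        _ = 1 := by rw [h2, zz hz2]
  have hx1 : x ≠ 1 := by
    rintro rfl
    rw [map_one] at hxf
    exact hc hxf.symm
  obtain ⟨j, hj⟩ : ∃ j, j = x * i * x⁻¹ := ⟨_, rfl⟩
  have hfj : f j = b := by rw [hj, map_mul, map_mul, map_inv, hxf, hca]
  have hii : i * i = z := sq_eq hz2 hu f hker ha haa
  have hjj : j * j = z := sq_eq hz2 hu f hker (by rw [hfj]; exact hb) (by rw [hfj]; exact hbb)
  have hijij : (i * j) * (i * j) = z := sq_eq hz2 hu f hker (by rw [map_mul, hfj]; exact hab)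
    (by rw [map_mul, hfj]; exact habab)
  have hrel := quat_rel hz2 hu hii hjj hijij
  have hzne : z ≠ 1 := by
    rintro rfl
    rw [orderOf_one] at hz2; norm_num at hz2
  -- `s, t`
  have hst : ∃ s t : G, s * s = z ∧ t * t = z ∧ t * s * t⁻¹ = s⁻¹ ∧ x * s * x⁻¹ = t ∧ x * t * x⁻¹ = s * t := by
    have h1 : (x * j * x⁻¹) * (i * j)⁻¹ ∈ zpowers z := by
      have e1 : f (x * j * x⁻¹) = f i * b := by rw [map_mul, map_mul, map_inv, hxf, hfj, hcb]
      have e2 : f (i * j) = f i * b := by rw [map_mul, hfj]
      rw [← hker, MonoidHom.mem_ker, map_mul, map_inv, e1, e2, mul_inv_cancel]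
    rcases mem_z hz2 h1 with h2 | h2
    · exact ⟨i, j, hii, hjj, hrel, hj.symm, mul_inv_eq_one.1 h2⟩
    · have h3 : x * j * x⁻¹ = z * (i * j) := by rw [← h2]; group
      have hzi : (z * i) * (z * i) = z := by
        calc (z * i) * (z * i) = z * (i * z) * i := by group
          _ = z * (z * i) * i := by rw [zc hz2 hu i]
          _ = (z * z) * (i * i) := by group
          _ = z := by rw [zz hz2, hii, one_mul]
      have hzj : (z * j) * (z * j) = z := by
        calc (z * j) * (z * j) = z * (j * z) * j := by group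
          _ = z * (z * j) * j := by rw [zc hz2 hu j]
          _ = (z * z) * (j * j) := by group
          _ = z := by rw [zz hz2, hjj, one_mul]
      have hzij : (z * i) * (z * j) = i * j := by
        calc (z * i) * (z * j) = z * (i * z) * j := by group
          _ = z * (z * i) * j := by rw [zc hz2 hu i]
          _ = (z * z) * (i * j) := by group
          _ = i * j := by rw [zz hz2, one_mul]
      refine ⟨z * i, z * j, hzi, hzj, quat_rel hz2 hu hzi hzj (by rw [hzij]; exact hijij), ?_, ?_⟩
      · calc x * (z * i) * x⁻¹ = (x * z) * i * x⁻¹ := by group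
          _ = (z * x) * i * x⁻¹ := by rw [zc hz2 hu x]
          _ = z * j := by rw [hj]; group
      · calc x * (z * j) * x⁻¹ = (x * z) * j * x⁻¹ := by group
          _ = (z * x) * j * x⁻¹ := by rw [zc hz2 hu x]
          _ = z * (x * j * x⁻¹) := by group
          _ = z * (z * (i * j)) := by rw [h3]
          _ = (z * z) * (i * j) := by group
          _ = z * i * (z * j) := by rw [zz hz2, one_mul, hzij]
  obtain ⟨s, t, hss, htt, hts, hxs, hxt⟩ := hst
  obtain ⟨e'⟩ := H62.sup_equiv_sl23 (s := s) (t := t) (x := x)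
    (by rw [show (2 * 2) = 2 + 2 from rfl, pow_add, pow_two, hss, zz hz2]) (by rw [pow_two, hss]; exact hzne)
    (by rw [pow_two, hss, htt]) hts hxs hxt (by rw [pow_succ, pow_two, hx3]) hx1
  have hcard : Nat.card ↥(closure {s, t} ⊔ zpowers x) = 24 := by
    rw [Nat.card_congr e'.toEquiv, Nat.card_eq_fintype_card]
    decide +kernel
  have hG : Nat.card G = 24 := by
    have h1 := f.ker.card_mul_index
    rw [Subgroup.index_ker, MonoidHom.range_eq_top.2 hfs, Subgroup.card_top, hker, Nat.card_zpowers, hz2,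
      nat_card_alternatingGroup, Nat.card_eq_fintype_card, Fintype.card_fin] at h1
    rw [← h1]; rfl
  have htop : closure {s, t} ⊔ zpowers x = (⊤ : Subgroup G) := Subgroup.eq_top_of_card_eq _ (by rw [hcard, hG])
  exact ⟨(Subgroup.topEquiv.symm.trans (MulEquiv.subgroupCongr htop.symm)).trans e'⟩

theorem a5_sq : ∀ x : alternatingGroup (Fin 5), x * x * (x * x) * (x * x * (x * x)) = 1 → x * x = 1 := by
  decide +kernel

theorem a5_not_solvable : ¬ Group.IsSolvable (alternatingGroup (Fin 5)) := by
  intro hs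
  have hsimp : IsSimpleGroup (alternatingGroup (Fin 5)) := alternatingGroup.isSimpleGroup_five
  have h := (IsSimpleGroup.comm_iff_isSolvable).2 hs
  revert h; decide +kernel

theorem B {G : Type*} [Group G] [Finite G] (z : G) (hz2 : orderOf z = 2) (hu : ∀ u : G, orderOf u = 2 → u = z)
    (Z : Subgroup G) [Z.Normal] (hZ : Z = Subgroup.zpowers z) (e : G ⧸ Z ≃* alternatingGroup (Fin 5)) :
    Nonempty (G ≃* Matrix.SpecialLinearGroup (Fin 2) (ZMod 5)) := by
  classical
  let f : G →* alternatingGroup (Fin 5) := e.toMonoidHom.comp (QuotientGroup.mk' Z)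
  have hfs : Function.Surjective f := e.surjective.comp (QuotientGroup.mk'_surjective Z)
  have hker : f.ker = zpowers z := by
    rw [← hZ]
    ext x
    rw [MonoidHom.mem_ker]
    change e (QuotientGroup.mk' Z x) = 1 ↔ _
    rw [map_eq_one_iff e e.injective, QuotientGroup.mk'_apply, QuotientGroup.eq_one_iff]
  have hfz : f z = 1 := by rw [← MonoidHom.mem_ker, hker]; exact mem_zpowers z
  have hG : Nat.card G = 120 := by
    have h1 := f.ker.card_mul_index
    rw [Subgroup.index_ker, MonoidHom.range_eq_top.2 hfs, Subgroup.card_top, hker, Nat.card_zpowers, hz2,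
      nat_card_alternatingGroup, Nat.card_eq_fintype_card, Fintype.card_fin] at h1
    rw [← h1]; rfl
  have hzne : z ≠ 1 := by
    rintro rfl
    rw [orderOf_one] at hz2; norm_num at hz2
  apply S3378.result.1 G hG
  · intro hs
    exact a5_not_solvable (Group.isSolvable_of_surjective hfs)
  · intro P
    haveI : Fact (Nat.Prime 2) := ⟨Nat.prime_two⟩
    have hP8 : Nat.card P = 8 := by
      rw [P.card_eq_multiplicity, hG]
      have : (120 : ℕ).factorization 2 = 3 := by
        rw [show (120 : ℕ) = 2 ^ 3 * 15 by norm_num, Nat.factorization_mul (by norm_num) (by norm_num),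
          Nat.Prime.factorization_pow Nat.prime_two]
        simp [Nat.factorization_eq_zero_of_not_dvd (show ¬ 2 ∣ 15 by norm_num)]
      rw [this]; norm_num
    have hsq : ∀ g ∈ (P : Subgroup G), f g * f g = 1 := by
      intro g hg
      apply a5_sq
      have h1 : g ^ 8 = 1 := by
        have := pow_card_eq_one' (x := (⟨g, hg⟩ : (P : Subgroup G)))
        rw [hP8] at this
        exact congrArg Subtype.val this
      have h2 : f (g * g * (g * g) * (g * g * (g * g))) = 1 := by
        have e1 : g * g * (g * g) * (g * g * (g * g)) = g ^ 8 := by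
          simp only [pow_succ, pow_zero, one_mul, mul_assoc]
        rw [e1, h1, map_one]
      simpa only [map_mul] using h2
    have hZcard : Nat.card (zpowers z) = 2 := by rw [Nat.card_zpowers, hz2]
    -- the generators
    obtain ⟨s, hsP, hfs1⟩ : ∃ s ∈ (P : Subgroup G), f s ≠ 1 := by
      by_contra hcon
      push Not at hcon
      have h1 : (P : Subgroup G) ≤ zpowers z := fun g hg => by
        rw [← hker, MonoidHom.mem_ker]; exact hcon g hg
      have h2 := Subgroup.card_le_of_le h1
      rw [hZcard] at h2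
      omega
    have hss : s * s = z := sq_eq hz2 hu f hker hfs1 (hsq s hsP)
    have hzs : z ∈ zpowers s := by rw [← hss]; exact mul_mem (mem_zpowers s) (mem_zpowers s)
    obtain ⟨t, htP, hft1, hfst⟩ : ∃ t ∈ (P : Subgroup G), f t ≠ 1 ∧ f (s * t) ≠ 1 := by
      by_contra hcon
      push Not at hcon
      have h1 : (P : Subgroup G) ≤ zpowers s := by
        intro g hg
        by_cases h2 : f g = 1
        · rw [← MonoidHom.mem_ker, hker] at h2
          exact (zpowers_le.2 hzs) h2
        · have h3 := hcon g hg h2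
          rw [← MonoidHom.mem_ker, hker] at h3
          have h4 := (zpowers_le.2 hzs) h3
          have e1 : g = s⁻¹ * (s * g) := by group
          rw [e1]
          exact mul_mem (inv_mem (mem_zpowers s)) h4
      have h2 := Subgroup.card_le_of_le h1
      have h3 : orderOf s ≤ 4 := by
        apply orderOf_le_of_pow_eq_one (by norm_num)
        rw [show (4 : ℕ) = 2 + 2 from rfl, pow_add, pow_two, hss, zz hz2]
      rw [Nat.card_zpowers] at h2
      omega
    have htt : t * t = z := sq_eq hz2 hu f hker hft1 (hsq t htP)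
    have hstst : (s * t) * (s * t) = z := sq_eq hz2 hu f hker hfst (hsq _ (mul_mem hsP htP))
    obtain ⟨e'⟩ := H62.closure_equiv_quat (s := s) (t := t)
      (by rw [show (2 * 2) = 2 + 2 from rfl, pow_add, pow_two, hss, zz hz2]) (by rw [pow_two, hss]; exact hzne)
      (by rw [pow_two, hss, htt]) (quat_rel hz2 hu hss htt hstst)
    have hle : closure {s, t} ≤ (P : Subgroup G) := by
      rw [closure_le]
      rintro x (rfl | rfl)
      · exact hsP
      · exact htP
    have hcc : Nat.card (closure {s, t}) = 8 := by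
      rw [Nat.card_congr e'.toEquiv, Nat.card_eq_fintype_card, QuaternionGroup.card]
    have heq : closure {s, t} = (P : Subgroup G) := Subgroup.eq_of_le_of_card_ge hle (by rw [hcc, hP8])
    exact ⟨(MulEquiv.subgroupCongr heq.symm).trans e'⟩

end Cfsg.Agent.CIT.S4021AB
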