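import Mathlib

set_option autoImplicit false

/-!
A self-centralising normal four-group with transitive odd action: `A₄` (helper57, for S4021).
-/

namespace Cfsg.Agent.CIT.S4021C

open Subgroup

theorem conj_card {G : Type*} [Group G] [Finite G] (z : G) :
    Nat.card {x // IsConj z x} * Nat.card (Subgroup.centralizer {z}) = Nat.card G := by
  classical
  haveI := Fintype.ofFinite G
  have h1 := MulAction.card_orbit_mul_card_stabilizer_eq_card_group (ConjAct G) z
  rw [← Nat.card_eq_fintype_card, ← Nat.card_eq_fintype_card, ← Nat.card_eq_fintype_card,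
    ← Subgroup.nat_card_centralizer_nat_card_stabilizer] at h1
  have h2 : Nat.card (MulAction.orbit (ConjAct G) z) = Nat.card {x // IsConj z x} := by
    apply Nat.card_congr
    refine Equiv.subtypeEquivRight fun x => ?_
    rw [ConjAct.mem_orbit_conjAct]
    exact isConj_comm
  rw [← h2]
  exact h1

theorem C {G : Type*} [Group G] [Finite G] (S : Subgroup G) [S.Normal] (hc : Nat.card S = 4)
    (hsq : ∀ x ∈ S, x ^ 2 = 1) (hC : Subgroup.centralizer (S : Set G) ≤ S) (hodd : Odd S.index)
    (hfus : ∀ x ∈ S, ∀ y ∈ S, x ≠ 1 → y ≠ 1 → ∃ g : G, y = g * x * g⁻¹) :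
    Nonempty (G ≃* alternatingGroup (Fin 4)) := by
  classical
  have hss : ∀ x ∈ S, x * x = 1 := fun x hx => by rw [← pow_two]; exact hsq x hx
  have hinv : ∀ x ∈ S, x⁻¹ = x := fun x hx => by rw [inv_eq_iff_mul_eq_one, hss x hx]
  have hab : ∀ a ∈ S, ∀ b ∈ S, a * b = b * a := by
    intro a ha b hb
    rw [← hinv _ (mul_mem ha hb), mul_inv_rev, hinv a ha, hinv b hb]
  have hn : ∀ g : G, ∀ x ∈ S, g * x * g⁻¹ ∈ S := fun g x hx => (inferInstance : S.Normal).conj_mem x hx g
  -- elements
  haveI : Fintype S := Fintype.ofFinite S
  have hfs : Fintype.card S = 4 := by rw [← Nat.card_eq_fintype_card]; exact hc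
  obtain ⟨u, hu1⟩ : ∃ u : S, u ≠ 1 := by
    by_contra hcon
    push Not at hcon
    have : Subsingleton S := ⟨fun a b => (hcon a).trans (hcon b).symm⟩
    have h1 := Finite.card_le_one_iff_subsingleton.2 this
    omega
  have hu : (u : G) ≠ 1 := fun h => hu1 (Subtype.ext h)
  obtain ⟨v, hv1, hvu⟩ : ∃ v : S, v ≠ 1 ∧ v ≠ u := by
    by_contra hcon
    push Not at hcon
    have h1 : (Finset.univ : Finset S) ⊆ {1, u} := by
      intro x _
      by_cases hx : x = 1
      · simp [hx]
      · simp [hcon x hx]
    have h2 := Finset.card_le_card h1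
    rw [Finset.card_univ, hfs] at h2
    have h3 := Finset.card_le_two (a := (1 : S)) (b := u)
    omega
  have hv : (v : G) ≠ 1 := fun h => hv1 (Subtype.ext h)
  have hvu' : (v : G) ≠ u := fun h => hvu (Subtype.ext h)
  -- `S = {1, u, v, u v}`
  have hall : ∀ x ∈ S, x = 1 ∨ x = u ∨ x = v ∨ x = (u : G) * v := by
    intro x hx
    have h1 : ({1, u, v, u * v} : Finset S) = Finset.univ := by
      apply Finset.eq_univ_of_card
      rw [hfs]
      have n1 : (1 : S) ≠ u := Ne.symm hu1
      have n2 : (1 : S) ≠ v := Ne.symm hv1
      have n3 : (1 : S) ≠ u * v := by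
        intro h
        apply hvu
        have : v = u⁻¹ := by rw [eq_inv_iff_mul_eq_one]; exact Subtype.ext (by
          rw [Subgroup.coe_mul, hab _ v.2 _ u.2]; exact (congrArg Subtype.val h).symm)
        rw [this]; exact Subtype.ext (hinv _ u.2)
      have n4 : u ≠ v := Ne.symm hvu
      have n5 : u ≠ u * v := by
        intro h
        exact hv1 (left_eq_mul.1 h)
      have n6 : v ≠ u * v := by
        intro h
        exact hu1 (right_eq_mul.1 h)
      rw [Finset.card_insert_of_notMem (by simp [n1, n2, n3]), Finset.card_insert_of_notMem (by simp [n4, n5]),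
        Finset.card_insert_of_notMem (by simp [n6]), Finset.card_singleton]
    have h2 : (⟨x, hx⟩ : S) ∈ ({1, u, v, u * v} : Finset S) := by rw [h1]; exact Finset.mem_univ _
    simp only [Finset.mem_insert, Finset.mem_singleton] at h2
    rcases h2 with h | h | h | h
    · left; exact congrArg Subtype.val h
    · right; left; exact congrArg Subtype.val h
    · right; right; left; exact congrArg Subtype.val h
    · right; right; right; exact congrArg Subtype.val h
  -- the centraliser of `u`
  have hcu : centralizer {(u : G)} = S := by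
    apply le_antisymm
    · intro g hg
      have hgu := mem_centralizer_singleton_iff.1 hg
      have hgg : g * g ∈ S := by
        apply hC
        have key : g * g * v = v * (g * g) := by
          have h1 := hall _ (hn g v v.2)
          have h2 : g * v * g⁻¹ = v ∨ g * v * g⁻¹ = (u : G) * v := by
            rcases h1 with h | h | h | h
            · exfalso; apply hv
              have : (v : G) = g⁻¹ * (g * v * g⁻¹) * g := by group
              rw [this, h]; group
            · exfalso; apply hvu'
              have : (v : G) = g⁻¹ * (g * v * g⁻¹) * g := by group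
              rw [this, h]
              calc g⁻¹ * (u : G) * g = g⁻¹ * (u * g) := by group
                _ = g⁻¹ * (g * u) := by rw [hgu]
                _ = u := by group
            · exact Or.inl h
            · exact Or.inr h
          rcases h2 with h | h
          · have h3 : g * v = v * g := mul_inv_eq_iff_eq_mul.1 h
            rw [mul_assoc, h3, ← mul_assoc, h3, mul_assoc]
          · have h3 : g * v = u * v * g := mul_inv_eq_iff_eq_mul.1 h
            calc g * g * v = g * (g * v) := by group
              _ = g * (u * v * g) := by rw [h3]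
              _ = (g * u) * v * g := by group
              _ = (u * g) * v * g := by rw [hgu]
              _ = u * (g * v) * g := by group
              _ = u * (u * v * g) * g := by rw [h3]
              _ = (u * u) * v * (g * g) := by group
              _ = v * (g * g) := by rw [hss _ u.2, one_mul]
        have keyu : g * g * u = u * (g * g) := by
          rw [mul_assoc, hgu, ← mul_assoc, hgu, mul_assoc]
        rw [mem_centralizer_iff]
        intro x hx
        rcases hall x hx with rfl | rfl | rfl | rfl
        · group
        · exact keyu.symm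
        · exact key.symm
        · calc (u : G) * v * (g * g) = u * (v * (g * g)) := by group
            _ = u * (g * g * v) := by rw [key]
            _ = (u * (g * g)) * v := by group
            _ = g * g * u * v := by rw [keyu]
            _ = g * g * (u * v) := by group
      have h1 : (QuotientGroup.mk g : G ⧸ S) ^ 2 = 1 := by
        rw [pow_two, ← QuotientGroup.mk_mul, QuotientGroup.eq_one_iff]; exact hgg
      have h2 : orderOf (QuotientGroup.mk g : G ⧸ S) ∣ Nat.gcd 2 S.index :=
        Nat.dvd_gcd (orderOf_dvd_of_pow_eq_one h1) (orderOf_dvd_natCard _)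
      have h3 : Nat.gcd 2 S.index = 1 := (Nat.coprime_two_left).2 hodd
      rw [h3, Nat.dvd_one, orderOf_eq_one_iff, QuotientGroup.eq_one_iff] at h2
      exact h2
    · intro g hg
      rw [mem_centralizer_singleton_iff]
      exact hab g hg u u.2
  have hcls : Nat.card {x // IsConj (u : G) x} = 3 := by
    have h1 : Nat.card {x // IsConj (u : G) x} = Nat.card {x : S // x ≠ 1} := by
      refine Nat.card_congr ⟨fun x => ⟨⟨x.1, ?_⟩, ?_⟩, fun x => ⟨x.1.1, ?_⟩, fun x => rfl, fun x => rfl⟩
      · obtain ⟨g, hg⟩ := isConj_iff.1 x.2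
        rw [← hg]; exact hn g u u.2
      · intro h
        obtain ⟨g, hg⟩ := isConj_iff.1 x.2
        have h2 : x.1 = 1 := congrArg Subtype.val h
        apply hu
        rw [h2] at hg
        have : (u : G) = g⁻¹ * (g * u * g⁻¹) * g := by group
        rw [this, hg]; group
      · obtain ⟨g, hg⟩ := hfus u u.2 x.1.1 x.1.2 hu (fun h => x.2 (Subtype.ext h))
        rw [isConj_iff]; exact ⟨g, hg.symm⟩
    rw [h1, Nat.card_eq_fintype_card, Fintype.card_subtype_compl, hfs, Fintype.card_subtype_eq]
  have hG : Nat.card G = 12 := by
    rw [← conj_card (u : G), hcls, hcu, hc]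
  -- the Sylow 3-subgroup
  haveI : Fact (Nat.Prime 3) := ⟨Nat.prime_three⟩
  obtain ⟨T⟩ : Nonempty (Sylow 3 G) := inferInstance
  have hT3 : Nat.card (T : Subgroup G) = 3 := by
    rw [T.card_eq_multiplicity, hG]
    have : (12 : ℕ).factorization 3 = 1 := by
      rw [show (12 : ℕ) = 3 * 4 by norm_num, Nat.factorization_mul (by norm_num) (by norm_num),
        Nat.Prime.factorization Nat.prime_three]
      simp [Nat.factorization_eq_zero_of_not_dvd (show ¬ 3 ∣ 4 by norm_num)]
    rw [this]; norm_num
  have hcore : (T : Subgroup G).normalCore = ⊥ := by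
    have hle := (T : Subgroup G).normalCore_le
    have hTS : (T : Subgroup G) ⊓ S = ⊥ := by
      apply Subgroup.inf_eq_bot_of_coprime
      rw [hT3, hc]; norm_num
    have hcc : (T : Subgroup G).normalCore ≤ centralizer (S : Set G) := by
      intro k hk
      rw [mem_centralizer_iff]
      intro s hs
      have h1 : k * s * k⁻¹ * s⁻¹ ∈ (T : Subgroup G) ⊓ S := by
        refine Subgroup.mem_inf.2 ⟨?_, mul_mem (hn k s hs) (inv_mem hs)⟩
        have e : k * s * k⁻¹ * s⁻¹ = k * (s * k⁻¹ * s⁻¹) := by group
        rw [e]
        exact hle (mul_mem hk ((T : Subgroup G).normalCore_normal.conj_mem _ (inv_mem hk) s))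
      rw [hTS, Subgroup.mem_bot, mul_inv_eq_one, mul_inv_eq_iff_eq_mul] at h1
      exact h1.symm
    rw [eq_bot_iff, ← hTS]
    exact le_inf hle (hcc.trans hC)
  have hidx : Nat.card (G ⧸ (T : Subgroup G)) = 4 := by
    have := (T : Subgroup G).card_mul_index
    rw [hT3, hG] at this
    change (T : Subgroup G).index = 4
    omega
  let φ : G →* Equiv.Perm (G ⧸ (T : Subgroup G)) := MulAction.toPermHom G (G ⧸ (T : Subgroup G))
  have hφ : Function.Injective φ := by
    rw [← MonoidHom.ker_eq_bot_iff, ← Subgroup.normalCore_eq_ker, hcore]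
  haveI : Fintype (G ⧸ (T : Subgroup G)) := Fintype.ofFinite _
  have e4 : (G ⧸ (T : Subgroup G)) ≃ Fin 4 := Fintype.equivFinOfCardEq (by rw [← Nat.card_eq_fintype_card]; exact hidx)
  let ψ : G →* Equiv.Perm (Fin 4) := (e4.permCongrHom).toMonoidHom.comp φ
  have hψ : Function.Injective ψ := (e4.permCongrHom).injective.comp hφ
  have hr : Nat.card ψ.range = 12 := by
    rw [← hG]; exact (Nat.card_congr (MonoidHom.ofInjective hψ).toEquiv).symm
  have hi : ψ.range.index = 2 := by
    have h1 := ψ.range.card_mul_index
    rw [hr, Nat.card_perm, Nat.card_eq_fintype_card, Fintype.card_fin] at h1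
    have : (4 : ℕ).factorial = 24 := rfl
    omega
  have halt : ψ.range = alternatingGroup (Fin 4) := Equiv.Perm.eq_alternatingGroup_of_index_eq_two hi
  exact ⟨(MonoidHom.ofInjective hψ).trans (MulEquiv.subgroupCongr halt)⟩

end Cfsg.Agent.CIT.S4021C
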