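import Mathlib
import Cfsg.Agent.S1141
import Cfsg.Agent.S0330
import Cfsg.Agent.Suzuki.LieIso
import Cfsg.Agent.BS.List

/-! The Sylow 2-subgroups of the Suzuki groups and of the unitary groups of dimension three
in characteristic two are not abelian. -/

set_option autoImplicit false

namespace Cfsg.Agent.CIT.S4021G

open Cfsg Subgroup

theorem sylow_transport {L K : Type*} [Group L] [Finite L] [Group K] (e : L ≃* K) (S : Sylow 2 L) :
    ∃ P : Sylow 2 K, Nonempty (↥(S : Subgroup L) ≃* ↥(P : Subgroup K)) := by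
  have : Fact (Nat.Prime 2) := ⟨Nat.prime_two⟩
  refine ⟨S.mapSurjective (f := e.toMonoidHom) e.surjective, ⟨?_⟩⟩
  exact (S : Subgroup L).equivMapOfInjective e.toMonoidHom e.injective

theorem center_eq_top {S T : Type*} [Group S] [Group T] (e : S ≃* T) (h : ∀ a b : S, a * b = b * a) :
    Nat.card (Subgroup.center T) = Nat.card T := by
  have h1 : Subgroup.center T = ⊤ := by
    rw [eq_top_iff]
    intro x _
    rw [Subgroup.mem_center_iff]
    intro g
    obtain ⟨a, rfl⟩ := e.surjective x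
    obtain ⟨b, rfl⟩ := e.surjective g
    rw [← map_mul, ← map_mul, h]
  rw [h1, Subgroup.card_top]

theorem not_abelian {L : Type*} [Group L] [Finite L] (S : Sylow 2 L)
    (hab : ∀ a ∈ (S : Subgroup L), ∀ b ∈ (S : Subgroup L), a * b = b * a)
    (h : Cfsg.Lie.IsoSuzuki L ∨ ∃ (F : Type) (_ : Field F) (_ : Fintype F) (q : ℕ),
      Even q ∧ 4 ≤ q ∧ Fintype.card F = q ^ 2 ∧ Nonempty (L ≃* Cfsg.PSU 3 F q)) : False := by
  have hab' : ∀ a b : ↥(S : Subgroup L), a * b = b * a := fun a b => Subtype.ext (hab a a.2 b b.2)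
  have : Fact (Nat.Prime 2) := ⟨Nat.prime_two⟩
  rcases h with ⟨F, i1, i2, m, hm, hc, ⟨f⟩⟩ | ⟨F, i1, i2, q, hq, h4, hc, ⟨f⟩⟩
  · obtain ⟨e⟩ := Cfsg.Agent.Suz.nonempty_lieEquiv hm hc
    obtain ⟨P, ⟨g⟩⟩ := sylow_transport (f.trans e.symm) S
    obtain ⟨h1, -, -, h2⟩ := S0330.result hm hc P
    have h6 : 2 ^ 1 ≤ 2 ^ (2 * m + 1) := Nat.pow_le_pow_right (by norm_num) (by omega)
    have h7 := center_eq_top g hab'
    rw [h7] at h2
    have h8 : (2 ^ (2 * m + 1)) ^ 2 = 2 ^ (2 * m + 1) := h1.symm.trans h2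
    nlinarith
  · obtain ⟨n, rfl, hn⟩ := BS.exists_pow_of_sq hq h4 hc
    obtain ⟨P, ⟨g⟩⟩ := sylow_transport f S
    obtain ⟨h1, h2, -⟩ := S1141.result hn hc P
    have h7 := center_eq_top g hab'
    rw [h7] at h2
    have h8 : (2 ^ n) ^ 3 = 2 ^ n := h1.symm.trans h2
    have h9 : (2 ^ n) * 4 ≤ (2 ^ n) ^ 3 := by
      calc (2 ^ n) * 4 ≤ 2 ^ n * 2 ^ n := Nat.mul_le_mul_left _ h4
        _ ≤ 2 ^ n * 2 ^ n * 2 ^ n := Nat.le_mul_of_pos_right _ (by positivity)
        _ = (2 ^ n) ^ 3 := by ring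
    have h10 : 0 < 2 ^ n := by positivity
    omega

end Cfsg.Agent.CIT.S4021G
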