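import Mathlib
import Cfsg.Agent.S2540
import Cfsg.Agent.S0494
import Cfsg.Agent.H14.SubField
import Cfsg.Agent.BS.List

/-! The group of two by two matrices of determinant one over the field of order four. -/

set_option autoImplicit false

namespace Cfsg.Agent.CIT.S4021I

open Cfsg Subgroup

theorem sl2_four {F : Type} [Field F] [Fintype F] (hF : Fintype.card F = 4) :
    Nonempty (Matrix.SpecialLinearGroup (Fin 2) F ≃* alternatingGroup (Fin 5)) := by
  have : CharP F 2 := by
    obtain ⟨p, hp, n, hpp, h⟩ := FiniteField.card' F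
    have h2 : p = 2 := by
      have h1 : p ∣ 2 ^ 2 := by
        rw [show (2 ^ 2 : ℕ) = Fintype.card F by rw [hF]; norm_num, h]
        exact dvd_pow_self p n.ne_zero
      exact (Nat.prime_dvd_prime_iff_eq hpp Nat.prime_two).1 (hpp.dvd_of_dvd_pow h1)
    subst h2
    exact hp
  have hA : Nonempty (Matrix.ProjectiveSpecialLinearGroup (Fin 2) F ≃* alternatingGroup (Fin 5)) := by
    haveI := S2540.psl_simple (F := F) 2 le_rfl (by rintro ⟨-, h1⟩; omega)
    apply S0494.result
    rw [H14.SubField.card_PSL2_even (by rw [hF]; decide), hF]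
  obtain ⟨e⟩ := hA
  obtain ⟨f⟩ := BS.sl2_equiv_psl2 F
  exact ⟨f.trans e⟩

end Cfsg.Agent.CIT.S4021I
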